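import Cfsg.Agent.H321.SpecEven.LFacts
import Cfsg.Agent.H77.E4Num

/-!
# Upper bounds for the element orders of `PSL_n(q)`, `PSU_n(q)`, `q` even (helper2, S3435, box X6)

* `ord_le` : `orderOf g ≤ 3 q ^ n`;
* `ord_two` : if `2 ^ (a + 1) ∣ orderOf g` then `2 ^ a + 1 ≤ n` and `orderOf g ≤ 3 * 2 ^ (a + 1) * q ^ (n - (2 ^ a + 1))`.
-/

set_option autoImplicit false
set_option linter.unusedSectionVars false

namespace Cfsg.Agent.R2.Spec.X6

open Polynomial Function Cfsg.Agent.H403 Cfsg.Agent.H403.NumTop Cfsg.Agent.H321.SpecEven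

section Cl

variable {E : Type*} [Field E] [IsAlgClosed E] [DecidableEq E] {x : ℤ}

/-- the periods are constant on orbits -/
theorem per_of_mem_orb {R : Multiset E} (h : Cl x R) {y z : E} (hy : y ∈ R) (hz : z ∈ orb x y) : per x z = per x y := by
  obtain ⟨j, rfl⟩ := mem_orb hz
  have hp : y ∈ periodicPts (fun y : E => y ^ x) := by
    refine mk_mem_periodicPts (h.per_pos hy) ?_
    show (fun y : E => y ^ x)^[per x y] y = y
    rw [iterate_zpow]
    exact pow_per x y
  have h1 := minimalPeriod_apply_iterate hp j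
  rwa [iterate_zpow] at h1

/-- the set of the periods -/
noncomputable def pers (x : ℤ) (R : Multiset E) : Finset ℕ := R.toFinset.image (per x)

theorem mem_pers {R : Multiset E} {i : ℕ} : i ∈ pers x R ↔ ∃ y ∈ R, per x y = i := by
  simp [pers]

theorem sum_pers_le : ∀ (k : ℕ) (R : Multiset E), Multiset.card R = k → Cl x R → (pers x R).sum id ≤ k := by
  intro k
  induction k using Nat.strong_induction_on with
  | _ k ih =>
    intro R hk hR
    rcases Multiset.empty_or_exists_mem R with rfl | ⟨y, hy⟩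
    · simp [pers]
    · have h1 := Cfsg.Agent.H321.SpecEven.Cl.sub_orb hR hy
      have h2 := hR.orb_le hy
      have h3 : Multiset.card (R - orb x y) = k - per x y := by
        rw [Multiset.card_sub h2, card_orb, hk]
      have h4 : per x y ≤ k := by
        rw [← hk, ← card_orb x y]
        exact Multiset.card_le_card h2
      have h5 := hR.per_pos hy
      have h6 := ih _ (by omega) _ h3 h1
      have h7 : pers x R ⊆ insert (per x y) (pers x (R - orb x y)) := by
        intro i hi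
        obtain ⟨z, hz, rfl⟩ := mem_pers.1 hi
        rw [Finset.mem_insert]
        have h8 : R = orb x y + (R - orb x y) := (add_tsub_cancel_of_le h2).symm
        rw [h8, Multiset.mem_add] at hz
        rcases hz with hz | hz
        · exact Or.inl (per_of_mem_orb hR hy hz)
        · exact Or.inr (mem_pers.2 ⟨z, hz, rfl⟩)
      calc (pers x R).sum id ≤ (insert (per x y) (pers x (R - orb x y))).sum id :=
            Finset.sum_le_sum_of_subset h7
        _ ≤ per x y + (pers x (R - orb x y)).sum id := by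
            by_cases hc : per x y ∈ pers x (R - orb x y)
            · rw [Finset.insert_eq_of_mem hc]
              exact Nat.le_add_left _ _
            · rw [Finset.sum_insert hc]
              rfl
        _ ≤ k := by omega

/-- removing `m` orbits -/
theorem sub_smul_orb {y : E} : ∀ (m : ℕ) {R : Multiset E}, Cl x R → y ∈ R → m ≤ R.count y → m ≠ 0 →
    ∃ T : Multiset E, Cl x T ∧ Multiset.card T + m * per x y = Multiset.card R ∧ (∀ z ∈ R, z ∈ T ∨ z ∈ orb x y) ∧
      (∀ z ∈ T, z ∈ R) := by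
  intro m
  induction m with
  | zero => intro R _ _ _ h; exact absurd rfl h
  | succ m ih =>
    intro R hR hy hm _
    have h1 := Cfsg.Agent.H321.SpecEven.Cl.sub_orb hR hy
    have h2 := hR.orb_le hy
    have h3 : R = orb x y + (R - orb x y) := (add_tsub_cancel_of_le h2).symm
    have h4 : Multiset.card (R - orb x y) + per x y = Multiset.card R := by
      conv_rhs => rw [h3, Multiset.card_add, card_orb]
      exact add_comm _ _
    have hsub : ∀ z ∈ R - orb x y, z ∈ R := fun z hz => Multiset.mem_of_le (Multiset.sub_le_self _ _) hz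
    by_cases hm0 : m = 0
    · subst hm0
      refine ⟨R - orb x y, h1, by rw [zero_add, one_mul]; exact h4, fun z hz => ?_, hsub⟩
      rw [h3, Multiset.mem_add] at hz
      exact hz.symm
    · have h5 : m ≤ (R - orb x y).count y := by
        have h6 : R.count y = (orb x y).count y + (R - orb x y).count y := by
          conv_lhs => rw [h3]
          rw [Multiset.count_add]
        have h7 := Multiset.nodup_iff_count_le_one.1 (orb_nodup x y) y
        omega
      have h6 : y ∈ R - orb x y := Multiset.one_le_count_iff_mem.1 (by omega)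
      obtain ⟨T, hT, hc, hcov, hTR⟩ := ih h1 h6 h5 hm0
      refine ⟨T, hT, ?_, fun z hz => ?_, fun z hz => hsub z (hTR z hz)⟩
      · rw [Nat.succ_mul]
        omega
      · rw [h3, Multiset.mem_add] at hz
        rcases hz with hz | hz
        · exact Or.inr hz
        · exact hcov z hz

end Cl

theorem AA_le (e : Bool) (i q : ℕ) : AA e i q ≤ q ^ i + 1 := by
  unfold AA
  split_ifs <;> omega

theorem AA_odd {e : Bool} {i q : ℕ} (hq : Even q) (hq2 : 2 ≤ q) (hi : 1 ≤ i) : Odd (AA e i q) := by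
  have h1 : Even (q ^ i) := hq.pow_of_ne_zero (by omega)
  have h2 : 1 ≤ q ^ i := Nat.one_le_pow _ _ (by omega)
  unfold AA
  split_ifs
  · exact Nat.Even.sub_odd h2 h1 odd_one
  · exact h1.add_one

theorem prod_AA_le {e : Bool} {q : ℕ} (hq : 2 ≤ q) {D : Finset ℕ} (hD : ∀ i ∈ D, 1 ≤ i) {m : ℕ} (hs : D.sum id ≤ m) :
    ∏ i ∈ D, AA e i q ≤ 3 * q ^ m := by
  calc ∏ i ∈ D, AA e i q ≤ ∏ i ∈ D, (q ^ i + 1) := Finset.prod_le_prod (fun _ _ => Nat.zero_le _) fun i _ => AA_le e i q
    _ ≤ 3 * q ^ D.sum id := Cfsg.Agent.H77.E4Num.prod_plus_le hq D hD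
    _ ≤ _ := Nat.mul_le_mul_left _ (Nat.pow_le_pow_right (by omega) hs)

theorem prod_AA_odd {e : Bool} {q : ℕ} (hq : Even q) (hq2 : 2 ≤ q) {D : Finset ℕ} (hD : ∀ i ∈ D, 1 ≤ i) :
    Odd (∏ i ∈ D, AA e i q) :=
  Finset.prod_induction _ Odd (fun _ _ => Odd.mul) odd_one fun i hi => AA_odd hq hq2 (hD i hi)

section

variable {F : Type*} [Field F] [Fintype F] {E : Type*} [Field E] [IsAlgClosed E] [Algebra F E]
variable {e : Bool} {n q : ℕ} {L : Type*} [Group L] {g : L} {M : Matrix (Fin n) (Fin n) F}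

/-- an odd number `N` for which all the `N`-th powers of the eigenvalues are equal -/
theorem odd_dvd [CharP F 2] (hMk : ∀ k : ℕ, g ^ k = 1 ↔ ∃ c : F, M ^ k = c • (1 : Matrix (Fin n) (Fin n) F)) {N : ℕ}
    (hN : Odd N) {c : F} (hc : c ≠ 0) (h : ∀ z ∈ evs E M, z ^ N = algebraMap F E c) {w : ℕ} (hw : Odd w)
    (hwg : w ∣ orderOf g) : w ∣ N := by
  classical
  have h1 := pow_eq_of_count (b := n) hN hc h (fun z => (Multiset.count_le_card _ _).trans (by
    rw [card_evs, Fintype.card_fin]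
    exact Nat.lt_two_pow_self.le))
  have h2 := orderOf_dvd_of_pow_eq_one ((hMk _).2 ⟨_, h1⟩)
  exact (Nat.Coprime.pow_right n (Nat.coprime_two_right.2 hw)).dvd_of_dvd_mul_right (hwg.trans h2)

theorem pow_dvd_AA_eq_one {N : ℕ} (hq : 1 ≤ q) {y : E} (h0 : y ≠ 0) (hN : AA e (per (xv e q) y) q ∣ N) : y ^ N = 1 := by
  obtain ⟨k, rfl⟩ := hN
  rw [pow_mul, pow_AA_eq_one hq h0 (pow_per _ y), one_pow]

/-- the odd part of an element order -/
theorem odd_part_le [CharP F 2] (hq : Even q) (hq2 : 2 ≤ q) (hM : Cl (xv e q) (evs E M))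
    (hMk : ∀ k : ℕ, g ^ k = 1 ↔ ∃ c : F, M ^ k = c • (1 : Matrix (Fin n) (Fin n) F)) {w : ℕ} (hw : Odd w)
    (hwg : w ∣ orderOf g) : w ≤ 3 * q ^ n := by
  classical
  set D := pers (xv e q) (evs E M) with hD
  have hcard : Multiset.card (evs E M) = n := by rw [card_evs, Fintype.card_fin]
  have hpos : ∀ i ∈ D, 1 ≤ i := by
    intro i hi
    obtain ⟨y, hy, rfl⟩ := mem_pers.1 hi
    exact hM.per_pos hy
  have hN := prod_AA_odd (e := e) hq hq2 hpos
  have h1 := odd_dvd (E := E) hMk hN one_ne_zero (fun z hz => by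
    rw [map_one]
    exact pow_dvd_AA_eq_one (q := q) (e := e) (by omega) (hM.ne_zero hz)
      (Finset.dvd_prod_of_mem (fun i => AA e i q) (mem_pers.2 ⟨z, hz, rfl⟩))) hw hwg
  exact (Nat.le_of_dvd hN.pos h1).trans (prod_AA_le hq2 hpos (sum_pers_le n _ hcard hM))

theorem AA_one_dvd {i : ℕ} (hq : 2 ≤ q) : AA e 1 q ∣ AA e i q := ⟨_, AA_eq_mul hq i⟩

/-- the odd part of an element order, if there is an eigenvalue with multiplicity -/
theorem odd_part_le_of_count [DecidableEq E] [CharP F 2] (hF : Fintype.card F = q ^ (cond e 0 1 + 1)) (hq : Even q)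
    (hM : Cl (xv e q) (evs E M))
    (hMk : ∀ k : ℕ, g ^ k = 1 ↔ ∃ c : F, M ^ k = c • (1 : Matrix (Fin n) (Fin n) F)) {w : ℕ} (hw : Odd w)
    (hwg : w ∣ orderOf g) {y : E} {m : ℕ} (hm : 2 ≤ m) (hy : m ≤ (evs E M).count y) :
    m ≤ n ∧ w ≤ 3 * q ^ (n - m) := by
  have hq2 : 2 ≤ q := two_le_of_card hF
  have hcard : Multiset.card (evs E M) = n := by rw [card_evs, Fintype.card_fin]
  have hyR : y ∈ evs E M := Multiset.one_le_count_iff_mem.1 (by omega)
  have hmn : m ≤ n := hy.trans ((Multiset.count_le_card _ _).trans hcard.le)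
  refine ⟨hmn, ?_⟩
  obtain ⟨T, hT, hTc, hcov, hTR⟩ := sub_smul_orb m hM hyR hy (by omega)
  rw [hcard] at hTc
  have hposT : ∀ i ∈ pers (xv e q) T, 1 ≤ i := by
    intro i hi
    obtain ⟨z, hz, rfl⟩ := mem_pers.1 hi
    exact hT.per_pos hz
  have hy0 := hM.ne_zero hyR
  have hsT := sum_pers_le _ T rfl hT
  rcases Nat.lt_or_ge (per (xv e q) y) 2 with hd | hd
  · -- `y` is fixed
    have hd1 : per (xv e q) y = 1 := by
      have := hM.per_pos hyR
      omega
    have hfix : y ^ xv e q = y := by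
      have := pow_per (xv e q) y
      rwa [hd1, pow_one] at this
    obtain ⟨c, hc⟩ := mem_range_of_fix hF hy0 hfix
    have hc0 : c ≠ 0 := by
      rintro rfl
      rw [map_zero] at hc
      exact hy0 hc.symm
    rw [hd1, mul_one] at hTc
    have horb : ∀ z ∈ orb (xv e q) y, z = y := by
      intro z hz
      obtain ⟨j, rfl⟩ := mem_orb hz
      induction j with
      | zero => simp
      | succ j ih =>
        rw [pow_succ, zpow_mul]
        have : y ^ (xv e q ^ j) = y := ih (by
          refine Multiset.mem_map.2 ⟨0, ?_, ?_⟩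
          · rw [Multiset.mem_range, hd1]
            exact Nat.one_pos
          · have h9 : ∀ j : ℕ, y ^ (xv e q ^ j) = y := by
              intro j
              induction j with
              | zero => simp
              | succ j ih => rw [pow_succ, zpow_mul, ih, hfix]
            rw [h9, h9])
        rw [this, hfix]
    rcases Multiset.empty_or_exists_mem T with hT0 | ⟨z, hz⟩
    · have h1 := odd_dvd (E := E) hMk odd_one hc0 (fun z hz => by
        rcases hcov z hz with h | h
        · rw [hT0] at h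
          exact absurd h (Multiset.notMem_zero _)
        · rw [horb z h, pow_one, hc]) hw hwg
      have h2 := Nat.le_of_dvd Nat.one_pos h1
      have h3 : 1 ≤ q ^ (n - m) := Nat.one_le_pow _ _ (by omega)
      omega
    · have hN := prod_AA_odd (e := e) hq hq2 hposT
      have h1 := odd_dvd (E := E) hMk hN one_ne_zero (fun t ht => by
        rw [map_one]
        rcases hcov t ht with h | h
        · exact pow_dvd_AA_eq_one (q := q) (e := e) (by omega) (hM.ne_zero ht)
            (Finset.dvd_prod_of_mem (fun i => AA e i q) (mem_pers.2 ⟨t, h, rfl⟩))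
        · rw [horb t h]
          refine pow_dvd_AA_eq_one (q := q) (e := e) (by omega) hy0 ?_
          rw [hd1]
          exact (AA_one_dvd hq2).trans (Finset.dvd_prod_of_mem (fun i => AA e i q) (mem_pers.2 ⟨z, hz, rfl⟩))) hw hwg
      exact (Nat.le_of_dvd hN.pos h1).trans (prod_AA_le hq2 hposT (hsT.trans (by omega)))
  · -- `y` is not fixed
    set D := insert (per (xv e q) y) (pers (xv e q) T) with hD
    have hpos : ∀ i ∈ D, 1 ≤ i := by
      intro i hi
      rcases Finset.mem_insert.1 hi with rfl | hi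
      · omega
      · exact hposT i hi
    have hsum : D.sum id ≤ n - m := by
      have h1 : D.sum id ≤ per (xv e q) y + (pers (xv e q) T).sum id := by
        by_cases hc : per (xv e q) y ∈ pers (xv e q) T
        · rw [hD, Finset.insert_eq_of_mem hc]
          exact Nat.le_add_left _ _
        · rw [hD, Finset.sum_insert hc]
          rfl
      have h2 : per (xv e q) y + m ≤ m * per (xv e q) y := by nlinarith
      generalize m * per (xv e q) y = z at h2 hTc
      omega
    have hN := prod_AA_odd (e := e) hq hq2 hpos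
    have h1 := odd_dvd (E := E) hMk hN one_ne_zero (fun t ht => by
      rw [map_one]
      refine pow_dvd_AA_eq_one (q := q) (e := e) (by omega) (hM.ne_zero ht)
            (Finset.dvd_prod_of_mem (fun i => AA e i q) ?_)
      rcases hcov t ht with h | h
      · exact Finset.mem_insert_of_mem (mem_pers.2 ⟨t, h, rfl⟩)
      · rw [per_of_mem_orb hM hyR h]
        exact Finset.mem_insert_self _ _) hw hwg
    exact (Nat.le_of_dvd hN.pos h1).trans (prod_AA_le hq2 hpos hsum)

/-- **The bound for the elements of even order.** -/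
theorem ord_two (hL : Lin E L e n q F) (hF : Fintype.card F = q ^ (cond e 0 1 + 1)) (hq : Even q) (hn : 1 ≤ n)
    (g : L) (hg : 0 < orderOf g) {a : ℕ} (ha : 2 ^ (a + 1) ∣ orderOf g) :
    2 ^ a + 1 ≤ n ∧ orderOf g ≤ 3 * 2 ^ (a + 1) * q ^ (n - (2 ^ a + 1)) := by
  classical
  have hq2 : 2 ≤ q := two_le_of_card hF
  have hch := charP_two_of_card hF hq
  have : Fact (Nat.Prime 2) := ⟨Nat.prime_two⟩
  obtain ⟨M, hdet, hM, hMk⟩ := hL g
  obtain ⟨c, w, hwo, hw⟩ := Nat.exists_eq_two_pow_mul_odd hg.ne'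
  have hac : a + 1 ≤ c := by
    rw [hw] at ha
    have h1 : 2 ^ (a + 1) ∣ 2 ^ c := (Nat.Coprime.pow_left _ (Nat.coprime_two_left.2 hwo)).dvd_of_dvd_mul_right ha
    exact (Nat.pow_dvd_pow_iff_le_right (by norm_num)).1 h1
  obtain ⟨b, rfl⟩ : ∃ b, c = b + 1 := ⟨c - 1, by omega⟩
  obtain ⟨ζ, hζ⟩ := (hMk (w * 2 ^ (b + 1))).1 (by rw [mul_comm, ← hw, pow_orderOf_eq_one])
  obtain ⟨c, hc0, hc⟩ := exists_common_pow (by omega) hn hM hζ
  have hw0 : 0 < w := hwo.pos
  obtain ⟨y, hy⟩ : ∃ y, 2 ^ b < (evs E M).count y := by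
    by_contra hcon
    push Not at hcon
    have h1 := pow_eq_of_count hwo hc0 hc hcon
    have h2 := orderOf_dvd_of_pow_eq_one ((hMk _).2 ⟨_, h1⟩)
    rw [hw, mul_comm] at h2
    have h3 := (Nat.pow_dvd_pow_iff_le_right (by norm_num : 1 < 2)).1 (Nat.dvd_of_mul_dvd_mul_left hw0 h2)
    omega
  have hb1 : 1 ≤ 2 ^ b := Nat.one_le_two_pow
  obtain ⟨h1, h2⟩ := odd_part_le_of_count hF hq hM hMk hwo (hw ▸ Dvd.intro_left _ rfl) (m := 2 ^ b + 1) (by omega) hy
  have hab : a ≤ b := by omega
  have h3 : 2 ^ a ≤ 2 ^ b := Nat.pow_le_pow_right (by norm_num) hab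
  refine ⟨by omega, ?_⟩
  obtain ⟨d, rfl⟩ := Nat.exists_eq_add_of_le hab
  have h4 : 2 ^ a + d ≤ 2 ^ (a + d) := by
    have h5 : d + 1 ≤ 2 ^ d := Nat.lt_two_pow_self
    have h6 : 1 ≤ 2 ^ a := Nat.one_le_two_pow
    calc 2 ^ a + d ≤ 2 ^ a + 2 ^ a * d := by nlinarith
      _ = 2 ^ a * (d + 1) := by ring
      _ ≤ 2 ^ a * 2 ^ d := Nat.mul_le_mul_left _ h5
      _ = 2 ^ (a + d) := (pow_add _ _ _).symm
  calc orderOf g = 2 ^ (a + d + 1) * w := hw
    _ ≤ 2 ^ (a + d + 1) * (3 * q ^ (n - (2 ^ (a + d) + 1))) := Nat.mul_le_mul_left _ h2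
    _ = 3 * 2 ^ (a + 1) * (2 ^ d * q ^ (n - (2 ^ (a + d) + 1))) := by
        rw [show a + d + 1 = (a + 1) + d by omega, pow_add 2 (a + 1) d]
        ring
    _ ≤ 3 * 2 ^ (a + 1) * (q ^ d * q ^ (n - (2 ^ (a + d) + 1))) :=
        Nat.mul_le_mul_left _ (Nat.mul_le_mul_right _ (Nat.pow_le_pow_left hq2 d))
    _ = 3 * 2 ^ (a + 1) * q ^ (d + (n - (2 ^ (a + d) + 1))) := by rw [pow_add q]
    _ ≤ _ := Nat.mul_le_mul_left _ (Nat.pow_le_pow_right (by omega) (by omega))

/-- **The bound for all elements.** -/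
theorem ord_le (hL : Lin E L e n q F) (hF : Fintype.card F = q ^ (cond e 0 1 + 1)) (hq : Even q) (hn : 1 ≤ n)
    (g : L) (hg : 0 < orderOf g) : orderOf g ≤ 3 * q ^ n := by
  have hq2 : 2 ≤ q := two_le_of_card hF
  rcases Nat.even_or_odd (orderOf g) with h | h
  · obtain ⟨h1, h2⟩ := ord_two hL hF hq hn g hg (a := 0) (by rw [zero_add, pow_one]; exact even_iff_two_dvd.1 h)
    refine h2.trans ?_
    rw [zero_add, pow_one, mul_assoc]
    refine Nat.mul_le_mul_left _ ?_
    calc 2 * q ^ (n - (2 ^ 0 + 1)) ≤ q * q ^ (n - (2 ^ 0 + 1)) := Nat.mul_le_mul_right _ hq2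
      _ = q ^ (n - (2 ^ 0 + 1) + 1) := (pow_succ' _ _).symm
      _ ≤ q ^ n := Nat.pow_le_pow_right (by omega) (by simp at h1 ⊢; omega)
  · have hch := charP_two_of_card hF hq
    obtain ⟨M, hdet, hM, hMk⟩ := hL g
    exact odd_part_le hq hq2 hM hMk h dvd_rfl

end

end Cfsg.Agent.R2.Spec.X6
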