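import Cfsg.Agent.H321.SpecEven.Frame
import Cfsg.Agent.H200.STwo.E3Glue
import Cfsg.Agent.H200.STwo.FrRed
import Cfsg.Agent.R2.Spec.X6.Ord

/-!
# `PSL_n(q)`, `PSU_n(q)`, `q = 2 ^ k`, `n ≥ 6`: the frame (helper2, S3435, box X6)

* `Hyp e n k F L` : the hypotheses on `L`; its adjacencies, elements, cocliques;
* `Sit e n k F L K S` : `ω(G) = ω(L)`, `K` the radical, `S` the socle of `G / K`; the primes of the classes `n`, `n - 1` are
  good (`top`), `S` contains the elements of these classes (`mem_top`).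
-/

set_option autoImplicit false
set_option linter.unusedSectionVars false

namespace Cfsg.Agent.R2.Spec.X6

open Subgroup Cfsg.Agent.H403 Cfsg.Agent.H403.NumTop Cfsg.Agent.H321.SpecEven
open Cfsg.Agent.H72.WGr (OCoc)
open Cfsg.Agent.H228.E3 (Coq5 SameOrd LDat)
open Cfsg.Agent.H420.QR (Red)

universe u v

/-- the hypotheses on `L` -/
structure Hyp (e : Bool) (n k : ℕ) (F : Type*) [Field F] [Fintype F] (L : Type*) [Group L] : Prop where
  hL : IsL L e n (2 ^ k) F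
  hF : Fintype.card F = (2 ^ k) ^ (cond e 0 1 + 1)
  hn : 6 ≤ n
  hk : 1 ≤ k
  he : e = true → 2 ≤ k

/-- the class of a prime is less than the prime -/
theorem od_lt {e : Bool} {q r : ℕ} (hr : r.Prime) (h : 1 ≤ od e q r) : od e q r < r := by
  have h1 := Nat.le_of_dvd (by have := hr.two_le; omega) (order_dvd_pred hr h rfl)
  have := hr.two_le
  omega

/-- primes with a given order of `2` -/
theorem exists_prime_two {e : Bool} {i k : ℕ} (hi : 3 ≤ i) (hk : 1 ≤ k) (h : k * nu e i ≠ 6) :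
    ∃ r : ℕ, r.Prime ∧ orderOf (2 : ZMod r) = k * nu e i ∧ od e (2 ^ k) r = i ∧ k * nu e i + 1 ≤ r := by
  have h3 := nu_ge (e := e) hi
  have h4 : 3 ≤ k * nu e i := by nlinarith
  obtain ⟨r, hr, hro⟩ := Lib.Zsigmondy.exists_prime_orderOf (a := 2) (n := k * nu e i) le_rfl (by omega) (by omega)
    (by omega)
  have hro' : orderOf (2 : ZMod r) = k * nu e i := by simpa using hro
  refine ⟨r, hr, hro', ?_, ?_⟩
  · apply order_of_nu hr hi
    have h5 : ((2 ^ k : ℕ) : ZMod r) = (2 : ZMod r) ^ k := by push_cast; rfl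
    rw [h5, orderOf_pow_of_dvd (by omega) (by rw [hro']; exact dvd_mul_right _ _), hro',
      Nat.mul_div_cancel_left _ (by omega)]
  · have h6 := order_dvd_pred hr (z := (2 : ZMod r)) (i := k * nu e i) (by omega) hro'
    have h7 := Nat.le_of_dvd (by have := hr.two_le; omega) h6
    have := hr.two_le
    omega

namespace Hyp

variable {F : Type*} [Field F] [Fintype F] {e : Bool} {n k : ℕ} {L : Type*} [Group L] [Finite L]

theorem q2 (H : Hyp e n k F L) : 2 ≤ 2 ^ k := two_le_of_card H.hF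

theorem qe (H : Hyp e n k F L) : Even (2 ^ k) := (Nat.even_pow).2 ⟨even_two, by have := H.hk; omega⟩

theorem lin (H : Hyp e n k F L) : Lin (AlgebraicClosure F) L e n (2 ^ k) F := H.hL.lin H.hF (by have := H.hn; omega)

theorem not_exc (H : Hyp e n k F L) {i : ℕ} (hi : 4 ≤ i) : ¬ Exc e i (2 ^ k) := by
  rintro (⟨h1, -, h2⟩ | ⟨-, h1, -⟩)
  · have h3 : 2 ^ 2 ≤ 2 ^ k := Nat.pow_le_pow_right (by norm_num) (H.he h1)
    omega
  · omega

/-- primes of different classes, not dividing each other, with large sum are not adjacent -/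
theorem nadj (H : Hyp e n k F L) {r s : ℕ} (hr : r.Prime) (hs : s.Prime) (h1 : 2 ≤ od e (2 ^ k) r)
    (h2 : 2 ≤ od e (2 ^ k) s) (h3 : n < od e (2 ^ k) r + od e (2 ^ k) s)
    (h4 : ¬ od e (2 ^ k) r ∣ od e (2 ^ k) s) (h5 : ¬ od e (2 ^ k) s ∣ od e (2 ^ k) r) :
    ¬ ∃ g : L, orderOf g = r * s := by
  refine H.lin.not_adj H.hF (by have := H.hn; omega) hr hs rfl rfl h1 h2 h3 ?_
  set k' := od e (2 ^ k) r
  set l := od e (2 ^ k) s
  change n < Nat.lcm k' l
  obtain ⟨a, ha⟩ := Nat.dvd_lcm_left k' l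
  obtain ⟨b, hb⟩ := Nat.dvd_lcm_right k' l
  have hpos : 0 < Nat.lcm k' l := Nat.lcm_pos (by omega) (by omega)
  have ha2 : 2 ≤ a := by
    by_contra hlt
    rcases (by omega : a = 0 ∨ a = 1) with rfl | rfl
    · rw [mul_zero] at ha; omega
    · rw [mul_one] at ha
      apply h5
      rw [← ha]
      exact Nat.dvd_lcm_right k' l
  have hb2 : 2 ≤ b := by
    by_contra hlt
    rcases (by omega : b = 0 ∨ b = 1) with rfl | rfl
    · rw [mul_zero] at hb; omega
    · rw [mul_one] at hb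
      apply h4
      rw [← hb]
      exact Nat.dvd_lcm_left k' l
  have e1 : k' * 2 ≤ k' * a := Nat.mul_le_mul_left k' ha2
  have e2 : l * 2 ≤ l * b := Nat.mul_le_mul_left l hb2
  omega

/-- elements of `L` whose order is a product of primes of class `i` -/
theorem elt (H : Hyp e n k F L) {c i : ℕ} (hi : 2 ≤ i) (hin : i ≤ n)
    (h : ∀ r : ℕ, r.Prime → r ∣ c → od e (2 ^ k) r = i) (hc : c ∣ AA e i (2 ^ k)) : ∃ g : L, orderOf g = c := by
  have hc0 : 0 < c := Nat.pos_of_ne_zero fun h0 => by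
    rw [h0, zero_dvd_iff] at hc
    have := AA_pos (e := e) H.q2 (i := i) (by omega)
    omega
  exact H.hL.exists_tor_le H.hF (by have := H.hn; omega) (by omega) hin hc0 (coprime_AA_one hi h) hc

theorem prime_elt (H : Hyp e n k F L) {r : ℕ} (hr : r.Prime) (hi : 2 ≤ od e (2 ^ k) r) (hin : od e (2 ^ k) r ≤ n) :
    ∃ g : L, orderOf g = r :=
  H.elt hi hin (fun s hs hsr => by rw [(Nat.prime_dvd_prime_iff_eq hs hr).1 hsr]) dvd_AA_od

theorem dvd_card (H : Hyp e n k F L) {r : ℕ} (hr : r.Prime) (hi : 2 ≤ od e (2 ^ k) r) (hin : od e (2 ^ k) r ≤ n) :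
    r ∣ Nat.card L := by
  obtain ⟨g, hg⟩ := H.prime_elt hr hi hin
  rw [← hg]
  exact orderOf_dvd_natCard g

theorem exists_od (H : Hyp e n k F L) {i : ℕ} (hi : 4 ≤ i) : ∃ r : ℕ, r.Prime ∧ od e (2 ^ k) r = i := by
  obtain ⟨r, h1, -, h3⟩ := exists_prime (e := e) (q := 2 ^ k) (i := i) H.q2 (by omega) (H.not_exc hi)
  exact ⟨r, h1, h3⟩

theorem ne_two (H : Hyp e n k F L) {r : ℕ} (h : 1 ≤ od e (2 ^ k) r) : r ≠ 2 := ne_two_of_od H.hk rfl h

/-- the classes of the primes of `L` -/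
theorem od_le (H : Hyp e n k F L) {r : ℕ} (hr : r.Prime) (hr2 : r ≠ 2) (hd : r ∣ Nat.card L) :
    1 ≤ od e (2 ^ k) r ∧ od e (2 ^ k) r ≤ n := by
  refine H.lin.ord_le H.hF (by have := H.hn; omega) hr (fun h => hr2 ?_) ?_
  · exact (Nat.prime_dvd_prime_iff_eq hr Nat.prime_two).1 (hr.dvd_of_dvd_pow h)
  · have := Fact.mk hr
    exact exists_prime_orderOf_dvd_card' r hd

/-- `2` is not adjacent to the primes of the classes `n`, `n - 1` -/
theorem far (H : Hyp e n k F L) {r : ℕ} (hr : r.Prime) (hi : od e (2 ^ k) r = n ∨ od e (2 ^ k) r = n - 1) :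
    ¬ ∃ g : L, orderOf g = 2 * r := by
  rw [mul_comm]
  exact H.lin.two_even H.hF H.qe (by have := H.hn; omega) hr rfl hi

/-- elements of order `2 ^ a * r`, `r` of class `i > n / 2` -/
theorem two_mul (H : Hyp e n k F L) {a r : ℕ} (hr : r.Prime) (h1 : n < 2 * od e (2 ^ k) r) (h2 : od e (2 ^ k) r ≤ n)
    (ha : 1 ≤ a) (h : ∃ g : L, orderOf g = 2 ^ a * r) : 2 ^ (a - 1) + od e (2 ^ k) r < n :=
  two_mul_lt H.lin H.hF H.qe (by have := H.hn; omega) hr rfl h1 h2 ha h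

/-- `4` is not adjacent to the primes of the classes `n`, `n - 1`, `n - 2` -/
theorem four (H : Hyp e n k F L) {r : ℕ} (hr : r.Prime) (h1 : n - 2 ≤ od e (2 ^ k) r) (h2 : od e (2 ^ k) r ≤ n) :
    ¬ ∃ g : L, orderOf g = 4 * r := by
  intro h
  have hn := H.hn
  have h3 := H.two_mul (a := 2) hr (by omega) h2 (by norm_num) (by simpa using h)
  norm_num at h3
  omega

theorem ord_le (H : Hyp e n k F L) (g : L) : orderOf g ≤ 3 * (2 ^ k) ^ n :=
  X6.ord_le H.lin H.hF H.qe (by have := H.hn; omega) g (orderOf_pos g)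

theorem top_dvd (H : Hyp e n k F L) {r : ℕ} (hr : r.Prime) (hi : od e (2 ^ k) r = n) {g : L} (hg : r ∣ orderOf g) :
    orderOf g * dd e n (2 ^ k) * AA e 1 (2 ^ k) ∣ AA e n (2 ^ k) :=
  Cfsg.Agent.H321.SpecEven.top_dvd H.lin H.hF (by have := H.hn; omega) hr hi (orderOf_pos g) hg

theorem pred_dvd (H : Hyp e n k F L) {r : ℕ} (hr : r.Prime) (hi : od e (2 ^ k) r = n - 1) {g : L} (hg : r ∣ orderOf g) :
    orderOf g * dd e n (2 ^ k) ∣ AA e (n - 1) (2 ^ k) :=
  Cfsg.Agent.H321.SpecEven.pred_dvd H.lin H.hF (by have := H.hn; omega) hr hi (orderOf_pos g) hg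

/-- cocliques of primes of different classes greater than `n / 2` -/
theorem coq (H : Hyp e n k F L) {A : Finset ℕ} (hA : ∀ r ∈ A, r.Prime ∧ n < 2 * od e (2 ^ k) r ∧ od e (2 ^ k) r ≤ n)
    (hi : ∀ r ∈ A, ∀ s ∈ A, od e (2 ^ k) r = od e (2 ^ k) s → r = s) : Coq5 L A := by
  have hn := H.hn
  have hdv : ∀ {i j : ℕ}, i ≠ j → n < 2 * i → n < 2 * j → i ≤ n → j ≤ n → ¬ i ∣ j := by
    rintro i j hij c1 c2 c3 c4 ⟨m, hm⟩
    rcases (by omega : m = 0 ∨ m = 1 ∨ 2 ≤ m) with rfl | rfl | hm2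
    · omega
    · omega
    · have : i * 2 ≤ i * m := Nat.mul_le_mul_left i hm2
      omega
  refine ⟨⟨fun r hr => (hA r hr).1, fun r hr => ?_, fun r hr => ?_, fun r hr s hs hrs => ?_⟩, fun r hr => ?_⟩
  · obtain ⟨h1, h2, h3⟩ := hA r hr
    exact H.dvd_card h1 (by omega) h3
  · obtain ⟨h1, h2, h3⟩ := hA r hr
    exact H.ne_two (by omega)
  · obtain ⟨a1, a2, a3⟩ := hA r hr
    obtain ⟨b1, b2, b3⟩ := hA s hs
    have hne : od e (2 ^ k) r ≠ od e (2 ^ k) s := fun h => hrs (hi r hr s hs h)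
    exact H.nadj a1 b1 (by omega) (by omega) (by omega) (hdv hne a2 b2 a3 b3) (hdv hne.symm b2 a2 b3 a3)
  · obtain ⟨h1, h2, h3⟩ := hA r hr
    have := od_lt h1 (e := e) (q := 2 ^ k) (by omega)
    omega

theorem two_dvd (H : Hyp e n k F L) : 2 ∣ Nat.card L := by
  obtain ⟨g, hg⟩ := Cfsg.Agent.H402.Uni.exists_pow H.hL H.hF (by have := H.hn; omega) Nat.prime_two rfl H.hk (a := 1)
    le_rfl (by have := H.hn; norm_num; omega)
  rw [pow_one] at hg
  rw [← hg]
  exact orderOf_dvd_natCard g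

end Hyp

end Cfsg.Agent.R2.Spec.X6
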