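import Cfsg.Agent.R2.Spec.X6.Base

/-!
# The classes `4`, `5`, `6` (helper2, S3435, box X6)

* `exists_c5`, `exists_c6`, `c4` : the numbers `Φ₅(±q) / (1, 5)`, `Φ₆(±q) / (1, 3)`, `q ^ 2 + 1`.
-/

set_option autoImplicit false
set_option linter.unusedSectionVars false

namespace Cfsg.Agent.R2.Spec.X6

open Cfsg.Agent.H403 Cfsg.Agent.H403.NumTop Cfsg.Agent.H321.SpecEven

/-- `Φ₅` -/
def P5 (x : ℤ) : ℤ := x ^ 4 + x ^ 3 + x ^ 2 + x + 1

/-- `Φ₆` -/
def P6 (x : ℤ) : ℤ := x ^ 2 - x + 1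

theorem P5_mul (x : ℤ) : (x - 1) * P5 x = x ^ 5 - 1 := by unfold P5; ring

theorem P6_mul (x : ℤ) : (x ^ 2 - 1) * (x ^ 2 + x + 1) * P6 x = x ^ 6 - 1 := by unfold P6; ring

theorem dvd_AA_of {e : Bool} {i q c : ℕ} (hq : 1 ≤ q) (h : (c : ℤ) ∣ xv e q ^ i - 1) : c ∣ AA e i q := by
  rw [← Int.natCast_dvd_natCast]
  rcases AA_eq (e := e) (i := i) hq with h1 | h1
  · rwa [h1]
  · rw [h1, dvd_neg]
    exact h

theorem order_five {r : ℕ} (hr : r.Prime) (hr5 : r ≠ 5) {x : ℤ} (h : (r : ℤ) ∣ P5 x) : orderOf ((x : ℤ) : ZMod r) = 5 := by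
  have := Fact.mk hr
  have : Fact (Nat.Prime 5) := ⟨by norm_num⟩
  have h0 : ((P5 x : ℤ) : ZMod r) = 0 := (ZMod.intCast_zmod_eq_zero_iff_dvd _ _).2 h
  refine orderOf_eq_prime ?_ ?_
  · have h1 : (((x - 1) * P5 x : ℤ) : ZMod r) = 0 := by
      rw [Int.cast_mul, h0, mul_zero]
    rw [P5_mul] at h1
    push_cast at h1
    exact sub_eq_zero.1 h1
  · intro h1
    have h2 : ((P5 x : ℤ) : ZMod r) = 5 := by
      unfold P5
      push_cast
      rw [h1]
      norm_num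
    rw [h2] at h0
    have h3 : ((5 : ℕ) : ZMod r) = 0 := by exact_mod_cast h0
    rw [ZMod.natCast_eq_zero_iff] at h3
    exact hr5 ((Nat.prime_dvd_prime_iff_eq hr (by norm_num)).1 h3)

theorem order_six {r : ℕ} (hr : r.Prime) (hr3 : r ≠ 3) (hr2 : r ≠ 2) {x : ℤ} (h : (r : ℤ) ∣ P6 x) :
    orderOf ((x : ℤ) : ZMod r) = 6 := by
  have := Fact.mk hr
  have h0 : ((P6 x : ℤ) : ZMod r) = 0 := (ZMod.intCast_zmod_eq_zero_iff_dvd _ _).2 h
  have h20 : ((2 : ℕ) : ZMod r) ≠ 0 := by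
    intro h1
    rw [ZMod.natCast_eq_zero_iff] at h1
    exact hr2 ((Nat.prime_dvd_prime_iff_eq hr Nat.prime_two).1 h1)
  have h30 : ((3 : ℕ) : ZMod r) ≠ 0 := by
    intro h1
    rw [ZMod.natCast_eq_zero_iff] at h1
    exact hr3 ((Nat.prime_dvd_prime_iff_eq hr Nat.prime_three).1 h1)
  have h1 : ((x : ℤ) : ZMod r) ^ 2 - (x : ZMod r) + 1 = 0 := by
    unfold P6 at h0
    push_cast at h0
    exact h0
  generalize ((x : ℤ) : ZMod r) = z at h1
  have h3 : z ^ 3 = -1 := by linear_combination (z + 1) * h1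
  have h6 : z ^ 6 = 1 := by
    calc z ^ 6 = (z ^ 3) ^ 2 := by ring
      _ = 1 := by rw [h3]; ring
  have hd := orderOf_dvd_of_pow_eq_one h6
  have hle := Nat.le_of_dvd (by norm_num) hd
  have hpos : 0 < orderOf z := by
    rcases Nat.eq_zero_or_pos (orderOf z) with h | h
    · rw [h] at hd
      norm_num at hd
    · exact h
  have h2' : ¬ orderOf z ∣ 3 := by
    intro h4
    have h5 := orderOf_dvd_iff_pow_eq_one.1 h4
    rw [h3] at h5
    apply h20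
    push_cast
    linear_combination -h5
  have h3' : ¬ orderOf z ∣ 2 := by
    intro h4
    have h5 := orderOf_dvd_iff_pow_eq_one.1 h4
    apply h30
    push_cast
    have h7 : z = 2 := by linear_combination h5 - h1
    rw [h7] at h5
    linear_combination h5
  generalize orderOf z = m at *
  interval_cases m <;> first | rfl | (exfalso; revert hd h2' h3'; decide)

theorem order_four {r : ℕ} (hr : r.Prime) (hr2 : r ≠ 2) {x : ℤ} (h : (r : ℤ) ∣ x ^ 2 + 1) :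
    orderOf ((x : ℤ) : ZMod r) = 4 := by
  have := Fact.mk hr
  have h0 : (((x ^ 2 + 1 : ℤ)) : ZMod r) = 0 := (ZMod.intCast_zmod_eq_zero_iff_dvd _ _).2 h
  have h20 : ((2 : ℕ) : ZMod r) ≠ 0 := by
    intro h1
    rw [ZMod.natCast_eq_zero_iff] at h1
    exact hr2 ((Nat.prime_dvd_prime_iff_eq hr Nat.prime_two).1 h1)
  push_cast at h0
  generalize ((x : ℤ) : ZMod r) = z at h0
  have h4 : orderOf z = 2 ^ (1 + 1) := by
    refine orderOf_eq_prime_pow ?_ ?_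
    · rw [pow_one]
      intro h5
      apply h20
      push_cast
      linear_combination h0 - h5
    · rw [show (2 : ℕ) ^ (1 + 1) = 4 by norm_num]
      linear_combination (z ^ 2 - 1) * h0
  simpa using h4

theorem not_25 (x : ℤ) : ¬ (25 : ℤ) ∣ P5 x := by
  intro h
  have h1 : ((P5 x : ℤ) : ZMod 25) = 0 := (ZMod.intCast_zmod_eq_zero_iff_dvd _ _).2 (by exact_mod_cast h)
  unfold P5 at h1
  push_cast at h1
  generalize ((x : ℤ) : ZMod 25) = z at h1
  revert z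
  decide

theorem not_9 (x : ℤ) : ¬ (9 : ℤ) ∣ P6 x := by
  intro h
  have h1 : ((P6 x : ℤ) : ZMod 9) = 0 := (ZMod.intCast_zmod_eq_zero_iff_dvd _ _).2 (by exact_mod_cast h)
  unfold P6 at h1
  push_cast at h1
  generalize ((x : ℤ) : ZMod 9) = z at h1
  revert z
  decide

theorem P5_pos (x : ℤ) : 0 < P5 x := by
  unfold P5
  nlinarith [sq_nonneg (x ^ 2 + x), sq_nonneg (x + 1), sq_nonneg x, sq_nonneg (2 * x + 1), sq_nonneg (2 * x ^ 2 + x)]

theorem P6_pos (x : ℤ) : 0 < P6 x := by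
  unfold P6
  nlinarith [sq_nonneg (2 * x - 1)]

theorem P6_odd (x : ℤ) : ¬ (2 : ℤ) ∣ P6 x := by
  intro h
  have h1 : ((P6 x : ℤ) : ZMod 2) = 0 := (ZMod.intCast_zmod_eq_zero_iff_dvd _ _).2 (by exact_mod_cast h)
  unfold P6 at h1
  push_cast at h1
  generalize ((x : ℤ) : ZMod 2) = z at h1
  revert z
  decide

/-- the number of the class `5` -/
theorem exists_c5 (e : Bool) {q : ℕ} (hq : 1 ≤ q) : ∃ g c : ℕ, (g = 1 ∨ g = 5) ∧ ((g : ℤ) * c = P5 (xv e q)) ∧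
    (∀ r : ℕ, r.Prime → r ∣ c → od e q r = 5) ∧ c ∣ AA e 5 q := by
  set x := xv e q with hx
  obtain ⟨V, hV⟩ : ∃ V : ℕ, (V : ℤ) = P5 x := ⟨(P5 x).toNat, Int.toNat_of_nonneg (P5_pos x).le⟩
  have hVA : V ∣ AA e 5 q := dvd_AA_of hq (by rw [hV, ← P5_mul]; exact dvd_mul_left _ _)
  by_cases h5 : 5 ∣ V
  · obtain ⟨c, hc⟩ := h5
    refine ⟨5, c, Or.inr rfl, by rw [← hV, hc]; push_cast; ring, fun r hr hrc => ?_, ?_⟩
    · refine order_five hr ?_ ?_
      · rintro rfl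
        obtain ⟨d, rfl⟩ := hrc
        apply not_25 x
        rw [← hV, hc]
        exact ⟨d, by push_cast; ring⟩
      · rw [← hV, hc]
        exact_mod_cast hrc.mul_left 5
    · exact (Dvd.intro_left 5 hc.symm).trans hVA
  · refine ⟨1, V, Or.inl rfl, by rw [← hV]; push_cast; ring, fun r hr hrc => ?_, hVA⟩
    refine order_five hr ?_ ?_
    · rintro rfl
      exact h5 hrc
    · rw [← hV]
      exact_mod_cast hrc

/-- the number of the class `6` -/
theorem exists_c6 (e : Bool) {q : ℕ} (hq : 1 ≤ q) : ∃ g c : ℕ, (g = 1 ∨ g = 3) ∧ ((g : ℤ) * c = P6 (xv e q)) ∧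
    (∀ r : ℕ, r.Prime → r ∣ c → od e q r = 6) ∧ c ∣ AA e 6 q := by
  set x := xv e q with hx
  obtain ⟨V, hV⟩ : ∃ V : ℕ, (V : ℤ) = P6 x := ⟨(P6 x).toNat, Int.toNat_of_nonneg (P6_pos x).le⟩
  have hVA : V ∣ AA e 6 q := dvd_AA_of hq (by rw [hV, ← P6_mul]; exact dvd_mul_left _ _)
  have h2 : ∀ r : ℕ, (r : ℤ) ∣ P6 x → r ≠ 2 := by
    rintro r hr rfl
    exact P6_odd x (by exact_mod_cast hr)
  by_cases h5 : 3 ∣ V
  · obtain ⟨c, hc⟩ := h5
    refine ⟨3, c, Or.inr rfl, by rw [← hV, hc]; push_cast; ring, fun r hr hrc => ?_, ?_⟩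
    · have h1 : (r : ℤ) ∣ P6 x := by
        rw [← hV, hc]
        exact_mod_cast hrc.mul_left 3
      refine order_six hr ?_ (h2 r h1) h1
      rintro rfl
      obtain ⟨d, rfl⟩ := hrc
      apply not_9 x
      rw [← hV, hc]
      exact ⟨d, by push_cast; ring⟩
    · exact (Dvd.intro_left 3 hc.symm).trans hVA
  · refine ⟨1, V, Or.inl rfl, by rw [← hV]; push_cast; ring, fun r hr hrc => ?_, hVA⟩
    have h1 : (r : ℤ) ∣ P6 x := by
      rw [← hV]
      exact_mod_cast hrc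
    refine order_six hr ?_ (h2 r h1) h1
    rintro rfl
    exact h5 hrc

/-- the class `4` -/
theorem c4_class {e : Bool} {q : ℕ} (hqe : Even q) {r : ℕ} (hr : r.Prime) (h : r ∣ q ^ 2 + 1) : od e q r = 4 := by
  have hx2 : xv e q ^ 2 = (q : ℤ) ^ 2 := by
    unfold xv
    split_ifs
    · rfl
    · ring
  refine order_four hr ?_ ?_
  · rintro rfl
    have h1 : Even (q ^ 2) := hqe.pow_of_ne_zero (by norm_num)
    have h2 : Even (q ^ 2 + 1) := even_iff_two_dvd.2 h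
    exact Nat.not_even_iff_odd.2 h1.add_one h2
  · rw [hx2]
    exact_mod_cast h

theorem c4_dvd {e : Bool} {q : ℕ} (hq : 1 ≤ q) : q ^ 2 + 1 ∣ AA e 4 q := by
  have hx2 : xv e q ^ 2 = (q : ℤ) ^ 2 := by
    unfold xv
    split_ifs
    · rfl
    · ring
  refine dvd_AA_of hq ?_
  push_cast
  rw [show xv e q ^ 4 - 1 = (xv e q ^ 2 - 1) * (xv e q ^ 2 + 1) by ring, hx2]
  exact dvd_mul_left _ _

end Cfsg.Agent.R2.Spec.X6
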