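import Cfsg.Agent.H77.E4XD

/-!
# The numerical contradictions for the exceptional groups (helper2, S3435, box X6; after helper77)

* `mL` : `2 ^ b ∣ ord` implies `mL b ≤ n`;
* `NumL` : the numerical hypotheses; `anaL`, `ana2L` : contradiction for large `q`; `finL` : for a given `q`.
-/

set_option autoImplicit false

namespace Cfsg.Agent.R2.Spec.X6

open Cfsg.Agent.H77.E4Num Cfsg.Agent.H77.E4Poly Cfsg.Agent.H588.ZsigPart Cfsg.Agent.H365.Zsig Cfsg.Agent.H77.E4Fin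

/-- the least rank -/
def mL : ℕ → ℕ
  | 0 => 0
  | b + 1 => 2 ^ b + 1

/-- the numerical hypotheses -/
structure NumL (q n : ℕ) (E : List ℕ) (N g u : ℕ) (I : List ℕ) : Prop where
  up : ∀ b : ℕ, 2 ^ b ∣ N → mL b ≤ n ∧ N ≤ 3 * g * 2 ^ b * q ^ (n - mL b)
  cls : ∀ e ∈ E, ∀ B : ℕ, 1 < B → Prim q e B → ∃ m ∈ I, B ∣ Pn m u

theorem Pn_pos {u : ℕ} (hu : 3 ≤ u) (m : ℕ) : 0 < Pn m u := by
  rw [Nat.pos_iff_ne_zero]
  intro h0
  have h9 := cast_Pn (show 2 ≤ u by omega) m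
  have h10 : ∀ v : ℤ, 3 ≤ v → 0 < Pz m v := by
    intro v hv
    unfold Pz
    have p1 : ∀ a b : ℕ, a ≤ b → v ^ a ≤ v ^ b := fun a b hab => pow_le_pow_right₀ (by omega) hab
    split <;> first | positivity | skip
    · nlinarith
    · have := p1 2 4 (by norm_num); omega
    · have := p1 5 6 (by norm_num); have := p1 3 4 (by norm_num); have := p1 1 2 (by norm_num)
      rw [pow_one] at this; omega
    · have := p1 7 8 (by norm_num); have := p1 4 5 (by norm_num); have := p1 1 3 (by norm_num)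
      rw [pow_one] at this; omega
    · have := p1 3 6 (by norm_num); omega
    · have := p1 6 8 (by norm_num); have := p1 2 4 (by norm_num); omega
    · have := p1 4 8 (by norm_num); omega
    · have a1 := p1 5 7 (by norm_num)
      have a2 : v ^ 4 + v ^ 3 ≤ v ^ 8 := by
        have a3 : v ^ 8 = v ^ 4 * v ^ 4 := by ring
        have a4 := p1 3 4 (by norm_num)
        have a5 : 2 ≤ v ^ 4 := by
          have : (3 : ℤ) ^ 4 ≤ v ^ 4 := pow_le_pow_left₀ (by norm_num) hv 4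
          omega
        nlinarith
      omega
  have h11 := h10 u (by exact_mod_cast hu)
  rw [← h9, h0] at h11
  simp at h11

/-- **Contradiction for large `q`.** -/
theorem anaL {q n : ℕ} {E : List ℕ} {Nf : ℕ → ℕ} {g b0 u : ℕ} {I : List ℕ} (hX : XD Nf g b0 I)
    (h : NumL q n E (Nf u) g u I) (hu : 3 ≤ u) (ho : Odd u) {e P Q : ℕ} (he : e ∈ E) (he3 : 3 ≤ e) (hP : P.Prime)
    (hPe : P ∣ e) (hmax : ∀ s : ℕ, s.Prime → s ∣ e → s ≤ P) (hQ2 : 2 ≤ Q) (hQ : Q ≤ q) (hφ : n - mL b0 ≤ e.totient)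
    (hc : P * 2 * (3 * g * 2 ^ b0) * Q ^ (n - mL b0) ≤ (Q - 1) ^ e.totient) : False := by
  obtain ⟨B, hB, hle⟩ := exists_prim (q := q) (by omega) he3 hP hPe hmax
  have h1 := pow_mono (by omega) hQ hφ hc
  have h2 := Ph_gt (e := e) (by omega) (show 2 ≤ q by omega)
  have h3 : P * 2 * (3 * g * 2 ^ b0) * q ^ (n - mL b0) < B * P := h1.trans_lt (h2.trans_le hle)
  have h4 : 2 * (3 * g * 2 ^ b0 * q ^ (n - mL b0)) < B := by
    have : P * (2 * (3 * g * 2 ^ b0 * q ^ (n - mL b0))) < P * B := by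
      calc P * (2 * (3 * g * 2 ^ b0 * q ^ (n - mL b0))) = P * 2 * (3 * g * 2 ^ b0) * q ^ (n - mL b0) := by ring
        _ < _ := h3
        _ = _ := mul_comm _ _
    exact Nat.lt_of_mul_lt_mul_left this
  have hg := hX.pos
  have h5 : 0 < 3 * g * 2 ^ b0 * q ^ (n - mL b0) := by
    have : 0 < q := by omega
    positivity
  obtain ⟨m, hm, hd⟩ := h.cls e he B (by omega) hB
  have h6 := hX.le u hu m hm
  obtain ⟨-, h7⟩ := h.up b0 (hX.two u ho)
  have h9 := Nat.le_of_dvd (Pn_pos hu m) hd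
  omega

/-- **Contradiction for large `q`, two classes, one factor.** -/
theorem ana2L {q n : ℕ} {E : List ℕ} {Nf : ℕ → ℕ} {g b0 u m : ℕ} (hX : XD Nf g b0 [m])
    (h : NumL q n E (Nf u) g u [m]) (hu : 3 ≤ u) (ho : Odd u) {e e' P P' Q : ℕ} (he : e ∈ E) (he' : e' ∈ E)
    (hlt : e' < e) (he3 : 3 ≤ e') (hP : P.Prime) (hP' : P'.Prime)
    (hPe : P ∣ e) (hmax : ∀ s : ℕ, s.Prime → s ∣ e → s ≤ P)
    (hPe' : P' ∣ e') (hmax' : ∀ s : ℕ, s.Prime → s ∣ e' → s ≤ P') (hQ2 : 2 ≤ Q) (hQ : Q ≤ q)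
    (hφ : n - mL b0 ≤ e.totient + e'.totient) (hq1 : P < (Q - 1) ^ e.totient)
    (hq2 : P' < (Q - 1) ^ e'.totient)
    (hc : P * P' * 2 * (3 * g * 2 ^ b0) * Q ^ (n - mL b0) ≤ (Q - 1) ^ (e.totient + e'.totient)) : False := by
  have hpos := Pn_pos hu m
  obtain ⟨B, hB, hle⟩ := exists_prim (q := q) (by omega) (by omega) hP hPe hmax
  obtain ⟨B', hB', hle'⟩ := exists_prim (q := q) (by omega) he3 hP' hPe' hmax'
  have h1 := pow_mono (by omega) hQ hφ hc
  have h2 := Ph_gt (e := e) (by omega) (show 2 ≤ q by omega)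
  have h2' := Ph_gt (e := e') (by omega) (show 2 ≤ q by omega)
  have hQq : Q - 1 ≤ q - 1 := by omega
  have b1 : 1 < B := by
    have h3 : P < B * P := (hq1.trans_le (Nat.pow_le_pow_left hQq _)).trans (h2.trans_le hle)
    have h4 : P * 1 < P * B := by rw [mul_one, mul_comm P B]; exact h3
    exact Nat.lt_of_mul_lt_mul_left h4
  have b2 : 1 < B' := by
    have h3 : P' < B' * P' := (hq2.trans_le (Nat.pow_le_pow_left hQq _)).trans (h2'.trans_le hle')
    have h4 : P' * 1 < P' * B' := by rw [mul_one, mul_comm P' B']; exact h3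
    exact Nat.lt_of_mul_lt_mul_left h4
  obtain ⟨m1, hm1, hd1⟩ := h.cls e he B b1 hB
  obtain ⟨m2, hm2, hd2⟩ := h.cls e' he' B' b2 hB'
  rw [List.mem_singleton] at hm1 hm2
  rw [hm1] at hd1
  rw [hm2] at hd2
  have hcop : Nat.Coprime B B' := Nat.Coprime.coprime_dvd_right hB'.1 (hB.2 e' (by omega) hlt)
  have h5 := Nat.le_of_dvd hpos (hcop.mul_dvd_of_dvd_of_dvd hd1 hd2)
  have h6 := hX.le u hu m (List.mem_singleton.2 rfl)
  obtain ⟨-, h7⟩ := h.up b0 (hX.two u ho)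
  have h8 : (q - 1) ^ (e.totient + e'.totient) < (B * P) * (B' * P') := by
    rw [pow_add]
    exact Nat.mul_lt_mul'' (h2.trans_le hle) (h2'.trans_le hle')
  have h9 : P * P' * (2 * (3 * g * 2 ^ b0 * q ^ (n - mL b0))) < P * P' * (B * B') := by
    calc P * P' * (2 * (3 * g * 2 ^ b0 * q ^ (n - mL b0))) = P * P' * 2 * (3 * g * 2 ^ b0) * q ^ (n - mL b0) := by ring
      _ ≤ _ := h1
      _ < _ := h8
      _ = _ := by ring
  have h10 := Nat.lt_of_mul_lt_mul_left h9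
  omega

/-! ### small `q` -/

/-- some exponent `b ≤ k` violates the upper bound -/
def badL (n q c N : ℕ) : ℕ → Bool
  | 0 => Nat.blt (c * q ^ n) N
  | k + 1 => (Nat.beq (N % 2 ^ (k + 1)) 0 && (Nat.blt n (mL (k + 1)) || Nat.blt (c * 2 ^ (k + 1) * q ^ (n - mL (k + 1))) N)) ||
      badL n q c N k

/-- the test for one value of `u` -/
def okL (n q c : ℕ) (Nf : ℕ → ℕ) (I Bs : List ℕ) (u : ℕ) : Bool :=
  badL n q c (Nf u) 7 || Bs.any fun B => I.all fun m => !(Nat.beq (Pn m u % B) 0)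

theorem badL_spec {n q g N k : ℕ} (h : badL n q (3 * g) N k = true)
    (hup : ∀ b : ℕ, 2 ^ b ∣ N → mL b ≤ n ∧ N ≤ 3 * g * 2 ^ b * q ^ (n - mL b)) : False := by
  induction k with
  | zero =>
    obtain ⟨-, h1⟩ := hup 0 (by simp)
    simp only [badL, Nat.blt, Nat.ble_eq] at h
    simp only [pow_zero, mul_one] at h1
    change N ≤ 3 * g * q ^ (n - 0) at h1
    rw [Nat.sub_zero] at h1
    omega
  | succ k ih =>
    simp only [badL, Bool.or_eq_true, Bool.and_eq_true, Nat.blt, Nat.ble_eq] at h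
    rcases h with ⟨h1, h2⟩ | h
    · obtain ⟨h3, h4⟩ := hup (k + 1) (Nat.dvd_of_mod_eq_zero (Nat.eq_of_beq_eq_true h1))
      rcases h2 with h2 | h2 <;> omega
    · exact ih h

/-- **Contradiction for a given `q`.** -/
theorem finL {q n : ℕ} {E : List ℕ} {Nf : ℕ → ℕ} {g b0 u : ℕ} {I : List ℕ} (hX : XD Nf g b0 I)
    (h : NumL q n E (Nf u) g u I) (hu : 3 ≤ u) (ho : Odd u) (Bs : List (ℕ × ℕ)) (K : ℕ)
    (hBs : (Bs.all fun p => decide (p.1 ∈ E) && primB q p.1 p.2) = true)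
    (hK : Nat.blt (3 * g * 2 ^ b0 * q ^ (n - mL b0)) (Nf (2 * K + 3)) = true)
    (hall : chkAll (fun k => okL n q (3 * g) Nf I (Bs.map Prod.snd) (2 * k + 3)) K = true) : False := by
  obtain ⟨k, hk⟩ : ∃ k, u = 2 * k + 3 := by
    obtain ⟨k, hk⟩ := ho
    exact ⟨k - 1, by omega⟩
  by_cases hkK : k < K
  · have h1 := chkAll_spec hall k hkK
    rw [← hk, okL, Bool.or_eq_true] at h1
    rcases h1 with h1 | h1
    · exact (badL_spec h1 h.up).elim
    · rw [List.any_eq_true] at h1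
      obtain ⟨B, hB, h2⟩ := h1
      obtain ⟨⟨e, B'⟩, hp, rfl⟩ := List.mem_map.1 hB
      rw [List.all_eq_true] at hBs
      have h3 := hBs _ hp
      rw [Bool.and_eq_true, decide_eq_true_eq] at h3
      obtain ⟨h4, h5⟩ := primB_spec h3.2
      obtain ⟨m, hm, hd⟩ := h.cls e h3.1 _ h4 h5
      rw [List.all_eq_true] at h2
      have h6 := h2 m hm
      have h7 : Pn m u % B' = 0 := Nat.mod_eq_zero_of_dvd hd
      simp [h7] at h6
  · have h1 := hX.mono (2 * K + 3) u (by omega) (by omega)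
    obtain ⟨-, h2⟩ := h.up b0 (hX.two u ho)
    simp only [Nat.blt, Nat.ble_eq] at hK
    omega

/-! ### `u ^ 2 ± u + 1` -/

/-- `4 t B - 3` is not the square of an odd number -/
def nsq (B t r : ℕ) : Bool := Nat.blt (r ^ 2) (4 * (t * B) - 3) && Nat.blt (4 * (t * B) - 3) ((r + 1) ^ 2)

theorem nsq_spec {B t r z : ℕ} (h : nsq B t r = true) (hz : z ^ 2 = 4 * (t * B) - 3) : False := by
  simp only [nsq, Bool.and_eq_true, Nat.blt, Nat.ble_eq] at h
  obtain ⟨h1, h2⟩ := h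
  rw [← hz] at h1 h2
  have h3 : r < z := lt_of_pow_lt_pow_left₀ 2 (Nat.zero_le _) h1
  have h4 : z < r + 1 := lt_of_pow_lt_pow_left₀ 2 (Nat.zero_le _) h2
  omega

/-- **`G₂(u)`, a divisor `B` of `u ^ 2 ± u + 1`**, `t < T` odd -/
theorem sqL {q n : ℕ} {E : List ℕ} {u : ℕ} (h : NumL q n E (Cfsg.Agent.H77.E4XD.nG2 u) 1 u [3, 6]) (hu : 3 ≤ u)
    (ho : Odd u) {e B : ℕ} (he : e ∈ E) (hB : primB q e B = true) {U : ℕ}
    (hU : Nat.blt (3 * 1 * 2 ^ 3 * q ^ (n - mL 3) + 1) (U ^ 2) = true) (rs : List ℕ)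
    (hT : Nat.blt (3 * 1 * 2 ^ 3 * q ^ (n - mL 3) + U + 2) ((2 * rs.length + 1) * B) = true)
    (hs : ∀ i : Fin rs.length, nsq B (2 * i.1 + 1) (rs.get i) = true) : False := by
  obtain ⟨hB1, hB2⟩ := primB_spec hB
  obtain ⟨m, hm, hd⟩ := h.cls e he B hB1 hB2
  obtain ⟨-, h1⟩ := h.up 3 (Cfsg.Agent.H77.E4XD.xG2.two u ho)
  rw [Cfsg.Agent.H77.E4XD.nG2] at h1
  simp only [Nat.blt, Nat.ble_eq] at hU hT
  set M := 3 * 1 * 2 ^ 3 * q ^ (n - mL 3) with hM
  have hu2 : u ^ 2 < U ^ 2 := by omega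
  have hu3 : u < U := lt_of_pow_lt_pow_left₀ 2 (Nat.zero_le _) hu2
  obtain ⟨t, ht⟩ := hd
  obtain ⟨w, hw⟩ := ho
  -- `t` is odd
  have hP : Pn m u % 2 = 1 ∧ Pn m u ≤ u ^ 2 + u + 1 ∧ ∃ z, z ^ 2 = 4 * Pn m u - 3 := by
    have e1 : u ^ 2 = 4 * (w * w + w) + 1 := by rw [hw]; ring
    simp only [List.mem_cons, List.not_mem_nil, or_false] at hm
    rcases hm with rfl | rfl
    · refine ⟨?_, le_rfl, 2 * u + 1, ?_⟩
      · show (u ^ 2 + u + 1) % 2 = 1
        omega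
      · show (2 * u + 1) ^ 2 = 4 * (u ^ 2 + u + 1) - 3
        have : (2 * u + 1) ^ 2 = 4 * (u ^ 2 + u) + 1 := by ring
        omega
    · have h2 : u ≤ u ^ 2 := Nat.le_self_pow (by norm_num) _
      refine ⟨?_, ?_, 2 * u - 1, ?_⟩
      · show (u ^ 2 - u + 1) % 2 = 1
        omega
      · show u ^ 2 - u + 1 ≤ _
        omega
      · show (2 * u - 1) ^ 2 = 4 * (u ^ 2 - u + 1) - 3
        obtain ⟨v, rfl⟩ : ∃ v, u = v + 1 := ⟨u - 1, by omega⟩
        have h3 : (v + 1) ^ 2 - (v + 1) = v * (v + 1) := by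
          have : (v + 1) ^ 2 = v * (v + 1) + (v + 1) := by ring
          omega
        rw [h3]
        have h4 : 2 * (v + 1) - 1 = 2 * v + 1 := by omega
        rw [h4]
        have : (2 * v + 1) ^ 2 = 4 * (v * (v + 1)) + 1 := by ring
        omega
  obtain ⟨hP1, hP2, z, hz⟩ := hP
  have ht1 : t % 2 = 1 := by
    by_contra hcon
    have h3 : t % 2 = 0 := by omega
    have h4 : (B * t) % 2 = 0 := by rw [Nat.mul_mod, h3, mul_zero, Nat.zero_mod]
    omega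
  have hlt : t < 2 * rs.length + 1 := by
    by_contra hcon
    have h3 : (2 * rs.length + 1) * B ≤ t * B := Nat.mul_le_mul_right _ (by omega)
    have h4 : t * B = B * t := mul_comm _ _
    omega
  refine nsq_spec (hs ⟨t / 2, by omega⟩) (z := z) ?_
  rw [hz, ht]
  congr 1
  have h5 : 2 * (t / 2) + 1 = t := by omega
  show 4 * (B * t) = 4 * ((2 * (t / 2) + 1) * B)
  rw [h5, mul_comm B t]

end Cfsg.Agent.R2.Spec.X6
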