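import Cfsg.Agent.R2.Spec.X6.ExcFin

/-!
# Numerical contradictions: E6, T6 (helper2, S3435, box X6)
-/

set_option autoImplicit false
set_option maxRecDepth 100000

namespace Cfsg.Agent.R2.Spec.X6

open Cfsg.Agent.H77.E4Num Cfsg.Agent.H77.E4Fin Cfsg.Agent.H77.E4XD

theorem E6_L9 {f u : ℕ} (hf : 2 ≤ f) (hu : 3 ≤ u) (ho : Odd u)
    (h : NumL (2 ^ f) 9 [9, 8] (nE6 u) 3 u [8, 9, 12]) : False := by
  by_cases h0 : 3 ≤ f
  · exact anaL (e := 9) (P := 3) (Q := 2 ^ 3) xE6 h hu ho (by decide) (by norm_num) (by norm_num) (by norm_num)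
      (hmax_of (by norm_num) (by decide +kernel)) (by norm_num) (Nat.pow_le_pow_right (by norm_num) h0)
      (by decide +kernel) (by decide +kernel)
  · have h1 : f < 3 := not_le.1 h0
    interval_cases f
    · exact finL xE6 h hu ho [(9, 1387), (8, 257)] 0 (by decide +kernel) (by decide +kernel) (by decide +kernel)

theorem E6_U9 {f u : ℕ} (hf : 1 ≤ f) (hu : 3 ≤ u) (ho : Odd u)
    (h : NumL (2 ^ f) 9 [18, 8] (nE6 u) 3 u [8, 9, 12]) : False := by
  by_cases h0 : 3 ≤ f
  · exact anaL (e := 18) (P := 3) (Q := 2 ^ 3) xE6 h hu ho (by decide) (by norm_num) (by norm_num) (by norm_num)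
      (hmax_of (by norm_num) (by decide +kernel)) (by norm_num) (Nat.pow_le_pow_right (by norm_num) h0)
      (by decide +kernel) (by decide +kernel)
  · have h1 : f < 3 := not_le.1 h0
    interval_cases f
    · exact finL xE6 h hu ho [(18, 19), (8, 17)] 0 (by decide +kernel) (by decide +kernel) (by decide +kernel)
    · exact finL xE6 h hu ho [(18, 4033), (8, 257)] 0 (by decide +kernel) (by decide +kernel) (by decide +kernel)

theorem E6_L10 {f u : ℕ} (hf : 2 ≤ f) (hu : 3 ≤ u) (ho : Odd u)
    (h : NumL (2 ^ f) 10 [10, 9] (nE6 u) 3 u [8, 9, 12]) : False := by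
  by_cases h0 : 3 ≤ f
  · exact anaL (e := 9) (P := 3) (Q := 2 ^ 3) xE6 h hu ho (by decide) (by norm_num) (by norm_num) (by norm_num)
      (hmax_of (by norm_num) (by decide +kernel)) (by norm_num) (Nat.pow_le_pow_right (by norm_num) h0)
      (by decide +kernel) (by decide +kernel)
  · have h1 : f < 3 := not_le.1 h0
    interval_cases f
    · exact finL xE6 h hu ho [(10, 41), (9, 1387)] 1 (by decide +kernel) (by decide +kernel) (by decide +kernel)

theorem E6_U10 {f u : ℕ} (hf : 1 ≤ f) (hu : 3 ≤ u) (ho : Odd u)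
    (h : NumL (2 ^ f) 10 [5, 18] (nE6 u) 3 u [8, 9, 12]) : False := by
  by_cases h0 : 3 ≤ f
  · exact anaL (e := 18) (P := 3) (Q := 2 ^ 3) xE6 h hu ho (by decide) (by norm_num) (by norm_num) (by norm_num)
      (hmax_of (by norm_num) (by decide +kernel)) (by norm_num) (Nat.pow_le_pow_right (by norm_num) h0)
      (by decide +kernel) (by decide +kernel)
  · have h1 : f < 3 := not_le.1 h0
    interval_cases f
    · exact finL xE6 h hu ho [(5, 31), (18, 19)] 0 (by decide +kernel) (by decide +kernel) (by decide +kernel)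
    · exact finL xE6 h hu ho [(5, 341), (18, 4033)] 1 (by decide +kernel) (by decide +kernel) (by decide +kernel)

theorem E6_L11 {f u : ℕ} (hf : 2 ≤ f) (hu : 3 ≤ u) (ho : Odd u)
    (h : NumL (2 ^ f) 11 [11, 10] (nE6 u) 3 u [8, 9, 12]) : False := by
  by_cases h0 : 2 ≤ f
  · exact anaL (e := 11) (P := 11) (Q := 2 ^ 2) xE6 h hu ho (by decide) (by norm_num) (by norm_num) (by norm_num)
      (hmax_of (by norm_num) (by decide +kernel)) (by norm_num) (Nat.pow_le_pow_right (by norm_num) h0)
      (by decide +kernel) (by decide +kernel)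
  · omega

theorem E6_U11 {f u : ℕ} (hf : 1 ≤ f) (hu : 3 ≤ u) (ho : Odd u)
    (h : NumL (2 ^ f) 11 [22, 5] (nE6 u) 3 u [8, 9, 12]) : False := by
  by_cases h0 : 2 ≤ f
  · exact anaL (e := 22) (P := 11) (Q := 2 ^ 2) xE6 h hu ho (by decide) (by norm_num) (by norm_num) (by norm_num)
      (hmax_of (by norm_num) (by decide +kernel)) (by norm_num) (Nat.pow_le_pow_right (by norm_num) h0)
      (by decide +kernel) (by decide +kernel)
  · have h1 : f < 2 := not_le.1 h0
    interval_cases f
    · exact finL xE6 h hu ho [(22, 683), (5, 31)] 1 (by decide +kernel) (by decide +kernel) (by decide +kernel)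

theorem E6_L12 {f u : ℕ} (hf : 2 ≤ f) (hu : 3 ≤ u) (ho : Odd u)
    (h : NumL (2 ^ f) 12 [12, 11] (nE6 u) 3 u [8, 9, 12]) : False := by
  by_cases h0 : 3 ≤ f
  · exact anaL (e := 11) (P := 11) (Q := 2 ^ 3) xE6 h hu ho (by decide) (by norm_num) (by norm_num) (by norm_num)
      (hmax_of (by norm_num) (by decide +kernel)) (by norm_num) (Nat.pow_le_pow_right (by norm_num) h0)
      (by decide +kernel) (by decide +kernel)
  · have h1 : f < 3 := not_le.1 h0
    interval_cases f
    · exact finL xE6 h hu ho [(12, 241), (11, 1398101)] 1 (by decide +kernel) (by decide +kernel) (by decide +kernel)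

theorem E6_U12 {f u : ℕ} (hf : 1 ≤ f) (hu : 3 ≤ u) (ho : Odd u)
    (h : NumL (2 ^ f) 12 [12, 22] (nE6 u) 3 u [8, 9, 12]) : False := by
  by_cases h0 : 3 ≤ f
  · exact anaL (e := 22) (P := 11) (Q := 2 ^ 3) xE6 h hu ho (by decide) (by norm_num) (by norm_num) (by norm_num)
      (hmax_of (by norm_num) (by decide +kernel)) (by norm_num) (Nat.pow_le_pow_right (by norm_num) h0)
      (by decide +kernel) (by decide +kernel)
  · have h1 : f < 3 := not_le.1 h0
    interval_cases f
    · exact finL xE6 h hu ho [(12, 13), (22, 683)] 1 (by decide +kernel) (by decide +kernel) (by decide +kernel)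
    · exact finL xE6 h hu ho [(12, 241), (22, 838861)] 1 (by decide +kernel) (by decide +kernel) (by decide +kernel)

theorem E6_L13 {f u : ℕ} (hf : 2 ≤ f) (hu : 3 ≤ u) (ho : Odd u)
    (h : NumL (2 ^ f) 13 [13, 12] (nE6 u) 3 u [8, 9, 12]) : False := by
  by_cases h0 : 3 ≤ f
  · exact anaL (e := 13) (P := 13) (Q := 2 ^ 3) xE6 h hu ho (by decide) (by norm_num) (by norm_num) (by norm_num)
      (hmax_of (by norm_num) (by decide +kernel)) (by norm_num) (Nat.pow_le_pow_right (by norm_num) h0)
      (by decide +kernel) (by decide +kernel)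
  · have h1 : f < 3 := not_le.1 h0
    interval_cases f
    · exact finL xE6 h hu ho [(13, 22369621), (12, 241)] 2 (by decide +kernel) (by decide +kernel) (by decide +kernel)

theorem E6_U13 {f u : ℕ} (hf : 1 ≤ f) (hu : 3 ≤ u) (ho : Odd u)
    (h : NumL (2 ^ f) 13 [26, 12] (nE6 u) 3 u [8, 9, 12]) : False := by
  by_cases h0 : 3 ≤ f
  · exact anaL (e := 26) (P := 13) (Q := 2 ^ 3) xE6 h hu ho (by decide) (by norm_num) (by norm_num) (by norm_num)
      (hmax_of (by norm_num) (by decide +kernel)) (by norm_num) (Nat.pow_le_pow_right (by norm_num) h0)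
      (by decide +kernel) (by decide +kernel)
  · have h1 : f < 3 := not_le.1 h0
    interval_cases f
    · exact finL xE6 h hu ho [(26, 2731), (12, 13)] 1 (by decide +kernel) (by decide +kernel) (by decide +kernel)
    · exact finL xE6 h hu ho [(26, 13421773), (12, 241)] 2 (by decide +kernel) (by decide +kernel) (by decide +kernel)

theorem E6_L14 {f u : ℕ} (hf : 2 ≤ f) (hu : 3 ≤ u) (ho : Odd u)
    (h : NumL (2 ^ f) 14 [14, 13] (nE6 u) 3 u [8, 9, 12]) : False := by
  by_cases h0 : 3 ≤ f
  · exact anaL (e := 13) (P := 13) (Q := 2 ^ 3) xE6 h hu ho (by decide) (by norm_num) (by norm_num) (by norm_num)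
      (hmax_of (by norm_num) (by decide +kernel)) (by norm_num) (Nat.pow_le_pow_right (by norm_num) h0)
      (by decide +kernel) (by decide +kernel)
  · have h1 : f < 3 := not_le.1 h0
    interval_cases f
    · exact finL xE6 h hu ho [(14, 3277), (13, 22369621)] 3 (by decide +kernel) (by decide +kernel) (by decide +kernel)

theorem E6_U14 {f u : ℕ} (hf : 1 ≤ f) (hu : 3 ≤ u) (ho : Odd u)
    (h : NumL (2 ^ f) 14 [7, 26] (nE6 u) 3 u [8, 9, 12]) : False := by
  by_cases h0 : 3 ≤ f
  · exact anaL (e := 26) (P := 13) (Q := 2 ^ 3) xE6 h hu ho (by decide) (by norm_num) (by norm_num) (by norm_num)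
      (hmax_of (by norm_num) (by decide +kernel)) (by norm_num) (Nat.pow_le_pow_right (by norm_num) h0)
      (by decide +kernel) (by decide +kernel)
  · have h1 : f < 3 := not_le.1 h0
    interval_cases f
    · exact finL xE6 h hu ho [(7, 127), (26, 2731)] 1 (by decide +kernel) (by decide +kernel) (by decide +kernel)
    · exact finL xE6 h hu ho [(7, 5461), (26, 13421773)] 3 (by decide +kernel) (by decide +kernel) (by decide +kernel)

theorem T6_L9 {f u : ℕ} (hf : 2 ≤ f) (hu : 3 ≤ u) (ho : Odd u)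
    (h : NumL (2 ^ f) 9 [9, 8] (nT6 u) 3 u [12, 18]) : False := by
  by_cases h0 : 3 ≤ f
  · exact anaL (e := 9) (P := 3) (Q := 2 ^ 3) xT6 h hu ho (by decide) (by norm_num) (by norm_num) (by norm_num)
      (hmax_of (by norm_num) (by decide +kernel)) (by norm_num) (Nat.pow_le_pow_right (by norm_num) h0)
      (by decide +kernel) (by decide +kernel)
  · have h1 : f < 3 := not_le.1 h0
    interval_cases f
    · exact finL xT6 h hu ho [(9, 1387), (8, 257)] 0 (by decide +kernel) (by decide +kernel) (by decide +kernel)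

theorem T6_U9 {f u : ℕ} (hf : 1 ≤ f) (hu : 3 ≤ u) (ho : Odd u)
    (h : NumL (2 ^ f) 9 [18, 8] (nT6 u) 3 u [12, 18]) : False := by
  by_cases h0 : 3 ≤ f
  · exact anaL (e := 18) (P := 3) (Q := 2 ^ 3) xT6 h hu ho (by decide) (by norm_num) (by norm_num) (by norm_num)
      (hmax_of (by norm_num) (by decide +kernel)) (by norm_num) (Nat.pow_le_pow_right (by norm_num) h0)
      (by decide +kernel) (by decide +kernel)
  · have h1 : f < 3 := not_le.1 h0
    interval_cases f
    · exact finL xT6 h hu ho [(18, 19), (8, 17)] 0 (by decide +kernel) (by decide +kernel) (by decide +kernel)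
    · exact finL xT6 h hu ho [(18, 4033), (8, 257)] 0 (by decide +kernel) (by decide +kernel) (by decide +kernel)

theorem T6_L10 {f u : ℕ} (hf : 2 ≤ f) (hu : 3 ≤ u) (ho : Odd u)
    (h : NumL (2 ^ f) 10 [10, 9] (nT6 u) 3 u [12, 18]) : False := by
  by_cases h0 : 3 ≤ f
  · exact anaL (e := 9) (P := 3) (Q := 2 ^ 3) xT6 h hu ho (by decide) (by norm_num) (by norm_num) (by norm_num)
      (hmax_of (by norm_num) (by decide +kernel)) (by norm_num) (Nat.pow_le_pow_right (by norm_num) h0)
      (by decide +kernel) (by decide +kernel)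
  · have h1 : f < 3 := not_le.1 h0
    interval_cases f
    · exact finL xT6 h hu ho [(10, 41), (9, 1387)] 0 (by decide +kernel) (by decide +kernel) (by decide +kernel)

theorem T6_U10 {f u : ℕ} (hf : 1 ≤ f) (hu : 3 ≤ u) (ho : Odd u)
    (h : NumL (2 ^ f) 10 [5, 18] (nT6 u) 3 u [12, 18]) : False := by
  by_cases h0 : 3 ≤ f
  · exact anaL (e := 18) (P := 3) (Q := 2 ^ 3) xT6 h hu ho (by decide) (by norm_num) (by norm_num) (by norm_num)
      (hmax_of (by norm_num) (by decide +kernel)) (by norm_num) (Nat.pow_le_pow_right (by norm_num) h0)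
      (by decide +kernel) (by decide +kernel)
  · have h1 : f < 3 := not_le.1 h0
    interval_cases f
    · exact finL xT6 h hu ho [(5, 31), (18, 19)] 0 (by decide +kernel) (by decide +kernel) (by decide +kernel)
    · exact finL xT6 h hu ho [(5, 341), (18, 4033)] 0 (by decide +kernel) (by decide +kernel) (by decide +kernel)

theorem T6_L11 {f u : ℕ} (hf : 2 ≤ f) (hu : 3 ≤ u) (ho : Odd u)
    (h : NumL (2 ^ f) 11 [11, 10] (nT6 u) 3 u [12, 18]) : False := by
  by_cases h0 : 2 ≤ f
  · exact anaL (e := 11) (P := 11) (Q := 2 ^ 2) xT6 h hu ho (by decide) (by norm_num) (by norm_num) (by norm_num)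
      (hmax_of (by norm_num) (by decide +kernel)) (by norm_num) (Nat.pow_le_pow_right (by norm_num) h0)
      (by decide +kernel) (by decide +kernel)
  · omega

theorem T6_U11 {f u : ℕ} (hf : 1 ≤ f) (hu : 3 ≤ u) (ho : Odd u)
    (h : NumL (2 ^ f) 11 [22, 5] (nT6 u) 3 u [12, 18]) : False := by
  by_cases h0 : 2 ≤ f
  · exact anaL (e := 22) (P := 11) (Q := 2 ^ 2) xT6 h hu ho (by decide) (by norm_num) (by norm_num) (by norm_num)
      (hmax_of (by norm_num) (by decide +kernel)) (by norm_num) (Nat.pow_le_pow_right (by norm_num) h0)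
      (by decide +kernel) (by decide +kernel)
  · have h1 : f < 2 := not_le.1 h0
    interval_cases f
    · exact finL xT6 h hu ho [(22, 683), (5, 31)] 0 (by decide +kernel) (by decide +kernel) (by decide +kernel)

theorem T6_L12 {f u : ℕ} (hf : 2 ≤ f) (hu : 3 ≤ u) (ho : Odd u)
    (h : NumL (2 ^ f) 12 [12, 11] (nT6 u) 3 u [12, 18]) : False := by
  by_cases h0 : 3 ≤ f
  · exact anaL (e := 11) (P := 11) (Q := 2 ^ 3) xT6 h hu ho (by decide) (by norm_num) (by norm_num) (by norm_num)
      (hmax_of (by norm_num) (by decide +kernel)) (by norm_num) (Nat.pow_le_pow_right (by norm_num) h0)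
      (by decide +kernel) (by decide +kernel)
  · have h1 : f < 3 := not_le.1 h0
    interval_cases f
    · exact finL xT6 h hu ho [(12, 241), (11, 1398101)] 1 (by decide +kernel) (by decide +kernel) (by decide +kernel)

theorem T6_U12 {f u : ℕ} (hf : 1 ≤ f) (hu : 3 ≤ u) (ho : Odd u)
    (h : NumL (2 ^ f) 12 [12, 22] (nT6 u) 3 u [12, 18]) : False := by
  by_cases h0 : 3 ≤ f
  · exact anaL (e := 22) (P := 11) (Q := 2 ^ 3) xT6 h hu ho (by decide) (by norm_num) (by norm_num) (by norm_num)
      (hmax_of (by norm_num) (by decide +kernel)) (by norm_num) (Nat.pow_le_pow_right (by norm_num) h0)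
      (by decide +kernel) (by decide +kernel)
  · have h1 : f < 3 := not_le.1 h0
    interval_cases f
    · exact finL xT6 h hu ho [(12, 13), (22, 683)] 1 (by decide +kernel) (by decide +kernel) (by decide +kernel)
    · exact finL xT6 h hu ho [(12, 241), (22, 838861)] 1 (by decide +kernel) (by decide +kernel) (by decide +kernel)

theorem T6_L13 {f u : ℕ} (hf : 2 ≤ f) (hu : 3 ≤ u) (ho : Odd u)
    (h : NumL (2 ^ f) 13 [13, 12] (nT6 u) 3 u [12, 18]) : False := by
  by_cases h0 : 3 ≤ f
  · exact anaL (e := 13) (P := 13) (Q := 2 ^ 3) xT6 h hu ho (by decide) (by norm_num) (by norm_num) (by norm_num)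
      (hmax_of (by norm_num) (by decide +kernel)) (by norm_num) (Nat.pow_le_pow_right (by norm_num) h0)
      (by decide +kernel) (by decide +kernel)
  · have h1 : f < 3 := not_le.1 h0
    interval_cases f
    · exact finL xT6 h hu ho [(13, 22369621), (12, 241)] 2 (by decide +kernel) (by decide +kernel) (by decide +kernel)

theorem T6_U13 {f u : ℕ} (hf : 1 ≤ f) (hu : 3 ≤ u) (ho : Odd u)
    (h : NumL (2 ^ f) 13 [26, 12] (nT6 u) 3 u [12, 18]) : False := by
  by_cases h0 : 3 ≤ f
  · exact anaL (e := 26) (P := 13) (Q := 2 ^ 3) xT6 h hu ho (by decide) (by norm_num) (by norm_num) (by norm_num)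
      (hmax_of (by norm_num) (by decide +kernel)) (by norm_num) (Nat.pow_le_pow_right (by norm_num) h0)
      (by decide +kernel) (by decide +kernel)
  · have h1 : f < 3 := not_le.1 h0
    interval_cases f
    · exact finL xT6 h hu ho [(26, 2731), (12, 13)] 1 (by decide +kernel) (by decide +kernel) (by decide +kernel)
    · exact finL xT6 h hu ho [(26, 13421773), (12, 241)] 2 (by decide +kernel) (by decide +kernel) (by decide +kernel)

theorem T6_L14 {f u : ℕ} (hf : 2 ≤ f) (hu : 3 ≤ u) (ho : Odd u)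
    (h : NumL (2 ^ f) 14 [14, 13] (nT6 u) 3 u [12, 18]) : False := by
  by_cases h0 : 3 ≤ f
  · exact anaL (e := 13) (P := 13) (Q := 2 ^ 3) xT6 h hu ho (by decide) (by norm_num) (by norm_num) (by norm_num)
      (hmax_of (by norm_num) (by decide +kernel)) (by norm_num) (Nat.pow_le_pow_right (by norm_num) h0)
      (by decide +kernel) (by decide +kernel)
  · have h1 : f < 3 := not_le.1 h0
    interval_cases f
    · exact finL xT6 h hu ho [(14, 3277), (13, 22369621)] 3 (by decide +kernel) (by decide +kernel) (by decide +kernel)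

theorem T6_U14 {f u : ℕ} (hf : 1 ≤ f) (hu : 3 ≤ u) (ho : Odd u)
    (h : NumL (2 ^ f) 14 [7, 26] (nT6 u) 3 u [12, 18]) : False := by
  by_cases h0 : 3 ≤ f
  · exact anaL (e := 26) (P := 13) (Q := 2 ^ 3) xT6 h hu ho (by decide) (by norm_num) (by norm_num) (by norm_num)
      (hmax_of (by norm_num) (by decide +kernel)) (by norm_num) (Nat.pow_le_pow_right (by norm_num) h0)
      (by decide +kernel) (by decide +kernel)
  · have h1 : f < 3 := not_le.1 h0
    interval_cases f
    · exact finL xT6 h hu ho [(7, 127), (26, 2731)] 1 (by decide +kernel) (by decide +kernel) (by decide +kernel)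
    · exact finL xT6 h hu ho [(7, 5461), (26, 13421773)] 3 (by decide +kernel) (by decide +kernel) (by decide +kernel)

end Cfsg.Agent.R2.Spec.X6
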