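import Cfsg.Agent.R2.Spec.X6.ExcFin

/-!
# Numerical contradictions: E7 (helper2, S3435, box X6)
-/

set_option autoImplicit false
set_option maxRecDepth 100000

namespace Cfsg.Agent.R2.Spec.X6

open Cfsg.Agent.H77.E4Num Cfsg.Agent.H77.E4Fin Cfsg.Agent.H77.E4XD

theorem E7_L9 {f u : ℕ} (hf : 2 ≤ f) (hu : 3 ≤ u) (ho : Odd u)
    (h : NumL (2 ^ f) 9 [9, 8] (nE6 u) 3 u [7, 9, 12, 14, 18]) : False := by
  by_cases h0 : 3 ≤ f
  · exact anaL (e := 9) (P := 3) (Q := 2 ^ 3) xE7 h hu ho (by decide) (by norm_num) (by norm_num) (by norm_num)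
      (hmax_of (by norm_num) (by decide +kernel)) (by norm_num) (Nat.pow_le_pow_right (by norm_num) h0)
      (by decide +kernel) (by decide +kernel)
  · have h1 : f < 3 := not_le.1 h0
    interval_cases f
    · exact finL xE7 h hu ho [(9, 1387), (8, 257)] 0 (by decide +kernel) (by decide +kernel) (by decide +kernel)

theorem E7_U9 {f u : ℕ} (hf : 1 ≤ f) (hu : 3 ≤ u) (ho : Odd u)
    (h : NumL (2 ^ f) 9 [18, 8] (nE6 u) 3 u [7, 9, 12, 14, 18]) : False := by
  by_cases h0 : 3 ≤ f
  · exact anaL (e := 18) (P := 3) (Q := 2 ^ 3) xE7 h hu ho (by decide) (by norm_num) (by norm_num) (by norm_num)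
      (hmax_of (by norm_num) (by decide +kernel)) (by norm_num) (Nat.pow_le_pow_right (by norm_num) h0)
      (by decide +kernel) (by decide +kernel)
  · have h1 : f < 3 := not_le.1 h0
    interval_cases f
    · exact finL xE7 h hu ho [(18, 19), (8, 17)] 0 (by decide +kernel) (by decide +kernel) (by decide +kernel)
    · exact finL xE7 h hu ho [(18, 4033), (8, 257)] 0 (by decide +kernel) (by decide +kernel) (by decide +kernel)

theorem E7_L10 {f u : ℕ} (hf : 2 ≤ f) (hu : 3 ≤ u) (ho : Odd u)
    (h : NumL (2 ^ f) 10 [10, 9] (nE6 u) 3 u [7, 9, 12, 14, 18]) : False := by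
  by_cases h0 : 3 ≤ f
  · exact anaL (e := 9) (P := 3) (Q := 2 ^ 3) xE7 h hu ho (by decide) (by norm_num) (by norm_num) (by norm_num)
      (hmax_of (by norm_num) (by decide +kernel)) (by norm_num) (Nat.pow_le_pow_right (by norm_num) h0)
      (by decide +kernel) (by decide +kernel)
  · have h1 : f < 3 := not_le.1 h0
    interval_cases f
    · exact finL xE7 h hu ho [(10, 41), (9, 1387)] 1 (by decide +kernel) (by decide +kernel) (by decide +kernel)

theorem E7_U10 {f u : ℕ} (hf : 1 ≤ f) (hu : 3 ≤ u) (ho : Odd u)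
    (h : NumL (2 ^ f) 10 [5, 18] (nE6 u) 3 u [7, 9, 12, 14, 18]) : False := by
  by_cases h0 : 3 ≤ f
  · exact anaL (e := 18) (P := 3) (Q := 2 ^ 3) xE7 h hu ho (by decide) (by norm_num) (by norm_num) (by norm_num)
      (hmax_of (by norm_num) (by decide +kernel)) (by norm_num) (Nat.pow_le_pow_right (by norm_num) h0)
      (by decide +kernel) (by decide +kernel)
  · have h1 : f < 3 := not_le.1 h0
    interval_cases f
    · exact finL xE7 h hu ho [(5, 31), (18, 19)] 0 (by decide +kernel) (by decide +kernel) (by decide +kernel)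
    · exact finL xE7 h hu ho [(5, 341), (18, 4033)] 1 (by decide +kernel) (by decide +kernel) (by decide +kernel)

theorem E7_L11 {f u : ℕ} (hf : 2 ≤ f) (hu : 3 ≤ u) (ho : Odd u)
    (h : NumL (2 ^ f) 11 [11, 10] (nE6 u) 3 u [7, 9, 12, 14, 18]) : False := by
  by_cases h0 : 2 ≤ f
  · exact anaL (e := 11) (P := 11) (Q := 2 ^ 2) xE7 h hu ho (by decide) (by norm_num) (by norm_num) (by norm_num)
      (hmax_of (by norm_num) (by decide +kernel)) (by norm_num) (Nat.pow_le_pow_right (by norm_num) h0)
      (by decide +kernel) (by decide +kernel)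
  · omega

theorem E7_U11 {f u : ℕ} (hf : 1 ≤ f) (hu : 3 ≤ u) (ho : Odd u)
    (h : NumL (2 ^ f) 11 [22, 5] (nE6 u) 3 u [7, 9, 12, 14, 18]) : False := by
  by_cases h0 : 2 ≤ f
  · exact anaL (e := 22) (P := 11) (Q := 2 ^ 2) xE7 h hu ho (by decide) (by norm_num) (by norm_num) (by norm_num)
      (hmax_of (by norm_num) (by decide +kernel)) (by norm_num) (Nat.pow_le_pow_right (by norm_num) h0)
      (by decide +kernel) (by decide +kernel)
  · have h1 : f < 2 := not_le.1 h0
    interval_cases f
    · exact finL xE7 h hu ho [(22, 683), (5, 31)] 1 (by decide +kernel) (by decide +kernel) (by decide +kernel)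

theorem E7_L12 {f u : ℕ} (hf : 2 ≤ f) (hu : 3 ≤ u) (ho : Odd u)
    (h : NumL (2 ^ f) 12 [12, 11] (nE6 u) 3 u [7, 9, 12, 14, 18]) : False := by
  by_cases h0 : 3 ≤ f
  · exact anaL (e := 11) (P := 11) (Q := 2 ^ 3) xE7 h hu ho (by decide) (by norm_num) (by norm_num) (by norm_num)
      (hmax_of (by norm_num) (by decide +kernel)) (by norm_num) (Nat.pow_le_pow_right (by norm_num) h0)
      (by decide +kernel) (by decide +kernel)
  · have h1 : f < 3 := not_le.1 h0
    interval_cases f
    · exact finL xE7 h hu ho [(12, 241), (11, 1398101)] 1 (by decide +kernel) (by decide +kernel) (by decide +kernel)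

theorem E7_U12 {f u : ℕ} (hf : 1 ≤ f) (hu : 3 ≤ u) (ho : Odd u)
    (h : NumL (2 ^ f) 12 [12, 22] (nE6 u) 3 u [7, 9, 12, 14, 18]) : False := by
  by_cases h0 : 3 ≤ f
  · exact anaL (e := 22) (P := 11) (Q := 2 ^ 3) xE7 h hu ho (by decide) (by norm_num) (by norm_num) (by norm_num)
      (hmax_of (by norm_num) (by decide +kernel)) (by norm_num) (Nat.pow_le_pow_right (by norm_num) h0)
      (by decide +kernel) (by decide +kernel)
  · have h1 : f < 3 := not_le.1 h0
    interval_cases f
    · exact finL xE7 h hu ho [(12, 13), (22, 683)] 1 (by decide +kernel) (by decide +kernel) (by decide +kernel)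
    · exact finL xE7 h hu ho [(12, 241), (22, 838861)] 1 (by decide +kernel) (by decide +kernel) (by decide +kernel)

theorem E7_L13 {f u : ℕ} (hf : 2 ≤ f) (hu : 3 ≤ u) (ho : Odd u)
    (h : NumL (2 ^ f) 13 [13, 12] (nE6 u) 3 u [7, 9, 12, 14, 18]) : False := by
  by_cases h0 : 3 ≤ f
  · exact anaL (e := 13) (P := 13) (Q := 2 ^ 3) xE7 h hu ho (by decide) (by norm_num) (by norm_num) (by norm_num)
      (hmax_of (by norm_num) (by decide +kernel)) (by norm_num) (Nat.pow_le_pow_right (by norm_num) h0)
      (by decide +kernel) (by decide +kernel)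
  · have h1 : f < 3 := not_le.1 h0
    interval_cases f
    · exact finL xE7 h hu ho [(13, 22369621), (12, 241)] 2 (by decide +kernel) (by decide +kernel) (by decide +kernel)

theorem E7_U13 {f u : ℕ} (hf : 1 ≤ f) (hu : 3 ≤ u) (ho : Odd u)
    (h : NumL (2 ^ f) 13 [26, 12] (nE6 u) 3 u [7, 9, 12, 14, 18]) : False := by
  by_cases h0 : 3 ≤ f
  · exact anaL (e := 26) (P := 13) (Q := 2 ^ 3) xE7 h hu ho (by decide) (by norm_num) (by norm_num) (by norm_num)
      (hmax_of (by norm_num) (by decide +kernel)) (by norm_num) (Nat.pow_le_pow_right (by norm_num) h0)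
      (by decide +kernel) (by decide +kernel)
  · have h1 : f < 3 := not_le.1 h0
    interval_cases f
    · exact finL xE7 h hu ho [(26, 2731), (12, 13)] 1 (by decide +kernel) (by decide +kernel) (by decide +kernel)
    · exact finL xE7 h hu ho [(26, 13421773), (12, 241)] 2 (by decide +kernel) (by decide +kernel) (by decide +kernel)

theorem E7_L14 {f u : ℕ} (hf : 2 ≤ f) (hu : 3 ≤ u) (ho : Odd u)
    (h : NumL (2 ^ f) 14 [14, 13] (nE6 u) 3 u [7, 9, 12, 14, 18]) : False := by
  by_cases h0 : 3 ≤ f
  · exact anaL (e := 13) (P := 13) (Q := 2 ^ 3) xE7 h hu ho (by decide) (by norm_num) (by norm_num) (by norm_num)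
      (hmax_of (by norm_num) (by decide +kernel)) (by norm_num) (Nat.pow_le_pow_right (by norm_num) h0)
      (by decide +kernel) (by decide +kernel)
  · have h1 : f < 3 := not_le.1 h0
    interval_cases f
    · exact finL xE7 h hu ho [(14, 3277), (13, 22369621)] 3 (by decide +kernel) (by decide +kernel) (by decide +kernel)

theorem E7_U14 {f u : ℕ} (hf : 1 ≤ f) (hu : 3 ≤ u) (ho : Odd u)
    (h : NumL (2 ^ f) 14 [7, 26] (nE6 u) 3 u [7, 9, 12, 14, 18]) : False := by
  by_cases h0 : 3 ≤ f
  · exact anaL (e := 26) (P := 13) (Q := 2 ^ 3) xE7 h hu ho (by decide) (by norm_num) (by norm_num) (by norm_num)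
      (hmax_of (by norm_num) (by decide +kernel)) (by norm_num) (Nat.pow_le_pow_right (by norm_num) h0)
      (by decide +kernel) (by decide +kernel)
  · have h1 : f < 3 := not_le.1 h0
    interval_cases f
    · exact finL xE7 h hu ho [(7, 127), (26, 2731)] 1 (by decide +kernel) (by decide +kernel) (by decide +kernel)
    · exact finL xE7 h hu ho [(7, 5461), (26, 13421773)] 3 (by decide +kernel) (by decide +kernel) (by decide +kernel)

theorem E7_L15 {f u : ℕ} (hf : 2 ≤ f) (hu : 3 ≤ u) (ho : Odd u)
    (h : NumL (2 ^ f) 15 [15, 14] (nE6 u) 3 u [7, 9, 12, 14, 18]) : False := by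
  by_cases h0 : 6 ≤ f
  · exact anaL (e := 15) (P := 5) (Q := 2 ^ 6) xE7 h hu ho (by decide) (by norm_num) (by norm_num) (by norm_num)
      (hmax_of (by norm_num) (by decide +kernel)) (by norm_num) (Nat.pow_le_pow_right (by norm_num) h0)
      (by decide +kernel) (by decide +kernel)
  · have h1 : f < 6 := not_le.1 h0
    interval_cases f
    · exact finL xE7 h hu ho [(15, 49981), (14, 3277)] 4 (by decide +kernel) (by decide +kernel) (by decide +kernel)
    · exact finL xE7 h hu ho [(15, 14709241), (14, 233017)] 8 (by decide +kernel) (by decide +kernel) (by decide +kernel)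
    · exact finL xE7 h hu ho [(15, 4027518961), (14, 15790321)] 17 (by decide +kernel) (by decide +kernel) (by decide +kernel)
    · exact finL xE7 h hu ho [(15, 1065184428001), (14, 1041204193)] 36 (by decide +kernel) (by decide +kernel) (by decide +kernel)

theorem E7_U15 {f u : ℕ} (hf : 1 ≤ f) (hu : 3 ≤ u) (ho : Odd u)
    (h : NumL (2 ^ f) 15 [30, 7] (nE6 u) 3 u [7, 9, 12, 14, 18]) : False := by
  by_cases h0 : 6 ≤ f
  · exact anaL (e := 30) (P := 5) (Q := 2 ^ 6) xE7 h hu ho (by decide) (by norm_num) (by norm_num) (by norm_num)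
      (hmax_of (by norm_num) (by decide +kernel)) (by norm_num) (Nat.pow_le_pow_right (by norm_num) h0)
      (by decide +kernel) (by decide +kernel)
  · have h1 : f < 6 := not_le.1 h0
    interval_cases f
    · exact finL xE7 h hu ho [(30, 331), (7, 127)] 1 (by decide +kernel) (by decide +kernel) (by decide +kernel)
    · exact finL xE7 h hu ho [(30, 80581), (7, 5461)] 4 (by decide +kernel) (by decide +kernel) (by decide +kernel)
    · exact finL xE7 h hu ho [(30, 18837001), (7, 42799)] 8 (by decide +kernel) (by decide +kernel) (by decide +kernel)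
    · exact finL xE7 h hu ho [(30, 4562284561), (7, 17895697)] 17 (by decide +kernel) (by decide +kernel) (by decide +kernel)
    · exact finL xE7 h hu ho [(30, 1133836730401), (7, 1108378657)] 36 (by decide +kernel) (by decide +kernel) (by decide +kernel)

theorem E7_L16 {f u : ℕ} (hf : 2 ≤ f) (hu : 3 ≤ u) (ho : Odd u)
    (h : NumL (2 ^ f) 16 [16, 15] (nE6 u) 3 u [7, 9, 12, 14, 18]) : False := by
  by_cases h0 : 10 ≤ f
  · exact anaL (e := 16) (P := 2) (Q := 2 ^ 10) xE7 h hu ho (by decide) (by norm_num) (by norm_num) (by norm_num)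
      (hmax_of (by norm_num) (by decide +kernel)) (by norm_num) (Nat.pow_le_pow_right (by norm_num) h0)
      (by decide +kernel) (by decide +kernel)
  · have h1 : f < 10 := not_le.1 h0
    interval_cases f
    · exact finL xE7 h hu ho [(16, 65537), (15, 49981)] 5 (by decide +kernel) (by decide +kernel) (by decide +kernel)
    · exact finL xE7 h hu ho [(16, 16777217), (15, 14709241)] 12 (by decide +kernel) (by decide +kernel) (by decide +kernel)
    · exact finL xE7 h hu ho [(16, 4294967297), (15, 4027518961)] 28 (by decide +kernel) (by decide +kernel) (by decide +kernel)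
    · exact finL xE7 h hu ho [(16, 1099511627777), (15, 1065184428001)] 64 (by decide +kernel) (by decide +kernel) (by decide +kernel)
    · exact finL xE7 h hu ho [(16, 281474976710657), (15, 277077987426241)] 146 (by decide +kernel) (by decide +kernel) (by decide +kernel)
    · exact finL xE7 h hu ho [(16, 72057594037927937), (15, 71494678177906561)] 328 (by decide +kernel) (by decide +kernel) (by decide +kernel)
    · exact finL xE7 h hu ho [(16, 18446744073709551617), (15, 18374687574905061121)] 738 (by decide +kernel) (by decide +kernel) (by decide +kernel)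
    · exact finL xE7 h hu ho [(16, 4722366482869645213697), (15, 4713143145948577267201)] 1657 (by decide +kernel) (by decide +kernel) (by decide +kernel)

theorem E7_U16 {f u : ℕ} (hf : 1 ≤ f) (hu : 3 ≤ u) (ho : Odd u)
    (h : NumL (2 ^ f) 16 [16, 30] (nE6 u) 3 u [7, 9, 12, 14, 18]) : False := by
  by_cases h0 : 10 ≤ f
  · exact anaL (e := 16) (P := 2) (Q := 2 ^ 10) xE7 h hu ho (by decide) (by norm_num) (by norm_num) (by norm_num)
      (hmax_of (by norm_num) (by decide +kernel)) (by norm_num) (Nat.pow_le_pow_right (by norm_num) h0)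
      (by decide +kernel) (by decide +kernel)
  · have h1 : f < 10 := not_le.1 h0
    interval_cases f
    · exact finL xE7 h hu ho [(16, 257), (30, 331)] 2 (by decide +kernel) (by decide +kernel) (by decide +kernel)
    · exact finL xE7 h hu ho [(16, 65537), (30, 80581)] 5 (by decide +kernel) (by decide +kernel) (by decide +kernel)
    · exact finL xE7 h hu ho [(16, 16777217), (30, 18837001)] 12 (by decide +kernel) (by decide +kernel) (by decide +kernel)
    · exact finL xE7 h hu ho [(16, 4294967297), (30, 4562284561)] 28 (by decide +kernel) (by decide +kernel) (by decide +kernel)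
    · exact finL xE7 h hu ho [(16, 1099511627777), (30, 1133836730401)] 64 (by decide +kernel) (by decide +kernel) (by decide +kernel)
    · exact finL xE7 h hu ho [(16, 281474976710657), (30, 285871932440641)] 146 (by decide +kernel) (by decide +kernel) (by decide +kernel)
    · exact finL xE7 h hu ho [(16, 72057594037927937), (30, 72620509361078401)] 328 (by decide +kernel) (by decide +kernel) (by decide +kernel)
    · exact finL xE7 h hu ho [(16, 18446744073709551617), (30, 18518800563924107521)] 738 (by decide +kernel) (by decide +kernel) (by decide +kernel)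
    · exact finL xE7 h hu ho [(16, 4722366482869645213697), (30, 4731589819653274206721)] 1657 (by decide +kernel) (by decide +kernel) (by decide +kernel)

theorem E7_L17 {f u : ℕ} (hf : 2 ≤ f) (hu : 3 ≤ u) (ho : Odd u)
    (h : NumL (2 ^ f) 17 [17, 16] (nE6 u) 3 u [7, 9, 12, 14, 18]) : False := by
  by_cases h0 : 3 ≤ f
  · exact anaL (e := 17) (P := 17) (Q := 2 ^ 3) xE7 h hu ho (by decide) (by norm_num) (by norm_num) (by norm_num)
      (hmax_of (by norm_num) (by decide +kernel)) (by norm_num) (Nat.pow_le_pow_right (by norm_num) h0)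
      (by decide +kernel) (by decide +kernel)
  · have h1 : f < 3 := not_le.1 h0
    interval_cases f
    · exact finL xE7 h hu ho [(17, 5726623061), (16, 65537)] 6 (by decide +kernel) (by decide +kernel) (by decide +kernel)

theorem E7_U17 {f u : ℕ} (hf : 1 ≤ f) (hu : 3 ≤ u) (ho : Odd u)
    (h : NumL (2 ^ f) 17 [34, 16] (nE6 u) 3 u [7, 9, 12, 14, 18]) : False := by
  by_cases h0 : 3 ≤ f
  · exact anaL (e := 34) (P := 17) (Q := 2 ^ 3) xE7 h hu ho (by decide) (by norm_num) (by norm_num) (by norm_num)
      (hmax_of (by norm_num) (by decide +kernel)) (by norm_num) (Nat.pow_le_pow_right (by norm_num) h0)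
      (by decide +kernel) (by decide +kernel)
  · have h1 : f < 3 := not_le.1 h0
    interval_cases f
    · exact finL xE7 h hu ho [(34, 43691), (16, 257)] 2 (by decide +kernel) (by decide +kernel) (by decide +kernel)
    · exact finL xE7 h hu ho [(34, 3435973837), (16, 65537)] 6 (by decide +kernel) (by decide +kernel) (by decide +kernel)

theorem E7_L18 {f u : ℕ} (hf : 2 ≤ f) (hu : 3 ≤ u) (ho : Odd u)
    (h : NumL (2 ^ f) 18 [18, 17] (nE6 u) 3 u [7, 9, 12, 14, 18]) : False := by
  by_cases h0 : 3 ≤ f
  · exact anaL (e := 17) (P := 17) (Q := 2 ^ 3) xE7 h hu ho (by decide) (by norm_num) (by norm_num) (by norm_num)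
      (hmax_of (by norm_num) (by decide +kernel)) (by norm_num) (Nat.pow_le_pow_right (by norm_num) h0)
      (by decide +kernel) (by decide +kernel)
  · have h1 : f < 3 := not_le.1 h0
    interval_cases f
    · exact finL xE7 h hu ho [(18, 4033), (17, 5726623061)] 8 (by decide +kernel) (by decide +kernel) (by decide +kernel)

theorem E7_U18 {f u : ℕ} (hf : 1 ≤ f) (hu : 3 ≤ u) (ho : Odd u)
    (h : NumL (2 ^ f) 18 [9, 34] (nE6 u) 3 u [7, 9, 12, 14, 18]) : False := by
  by_cases h0 : 3 ≤ f
  · exact anaL (e := 34) (P := 17) (Q := 2 ^ 3) xE7 h hu ho (by decide) (by norm_num) (by norm_num) (by norm_num)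
      (hmax_of (by norm_num) (by decide +kernel)) (by norm_num) (Nat.pow_le_pow_right (by norm_num) h0)
      (by decide +kernel) (by decide +kernel)
  · have h1 : f < 3 := not_le.1 h0
    interval_cases f
    · exact finL xE7 h hu ho [(9, 73), (34, 43691)] 2 (by decide +kernel) (by decide +kernel) (by decide +kernel)
    · exact finL xE7 h hu ho [(9, 1387), (34, 3435973837)] 8 (by decide +kernel) (by decide +kernel) (by decide +kernel)

theorem E7_L19 {f u : ℕ} (hf : 2 ≤ f) (hu : 3 ≤ u) (ho : Odd u)
    (h : NumL (2 ^ f) 19 [19, 18] (nE6 u) 3 u [7, 9, 12, 14, 18]) : False := by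
  by_cases h0 : 3 ≤ f
  · exact anaL (e := 19) (P := 19) (Q := 2 ^ 3) xE7 h hu ho (by decide) (by norm_num) (by norm_num) (by norm_num)
      (hmax_of (by norm_num) (by decide +kernel)) (by norm_num) (Nat.pow_le_pow_right (by norm_num) h0)
      (by decide +kernel) (by decide +kernel)
  · have h1 : f < 3 := not_le.1 h0
    interval_cases f
    · exact finL xE7 h hu ho [(19, 91625968981), (18, 4033)] 11 (by decide +kernel) (by decide +kernel) (by decide +kernel)

theorem E7_U19 {f u : ℕ} (hf : 1 ≤ f) (hu : 3 ≤ u) (ho : Odd u)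
    (h : NumL (2 ^ f) 19 [38, 9] (nE6 u) 3 u [7, 9, 12, 14, 18]) : False := by
  by_cases h0 : 3 ≤ f
  · exact anaL (e := 38) (P := 19) (Q := 2 ^ 3) xE7 h hu ho (by decide) (by norm_num) (by norm_num) (by norm_num)
      (hmax_of (by norm_num) (by decide +kernel)) (by norm_num) (Nat.pow_le_pow_right (by norm_num) h0)
      (by decide +kernel) (by decide +kernel)
  · have h1 : f < 3 := not_le.1 h0
    interval_cases f
    · exact finL xE7 h hu ho [(38, 174763), (9, 73)] 3 (by decide +kernel) (by decide +kernel) (by decide +kernel)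
    · exact finL xE7 h hu ho [(38, 54975581389), (9, 1387)] 11 (by decide +kernel) (by decide +kernel) (by decide +kernel)

theorem E7_L20 {f u : ℕ} (hf : 2 ≤ f) (hu : 3 ≤ u) (ho : Odd u)
    (h : NumL (2 ^ f) 20 [20, 19] (nE6 u) 3 u [7, 9, 12, 14, 18]) : False := by
  by_cases h0 : 3 ≤ f
  · exact anaL (e := 19) (P := 19) (Q := 2 ^ 3) xE7 h hu ho (by decide) (by norm_num) (by norm_num) (by norm_num)
      (hmax_of (by norm_num) (by decide +kernel)) (by norm_num) (Nat.pow_le_pow_right (by norm_num) h0)
      (by decide +kernel) (by decide +kernel)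
  · have h1 : f < 3 := not_le.1 h0
    interval_cases f
    · exact finL xE7 h hu ho [(20, 61681), (19, 91625968981)] 14 (by decide +kernel) (by decide +kernel) (by decide +kernel)

theorem E7_U20 {f u : ℕ} (hf : 1 ≤ f) (hu : 3 ≤ u) (ho : Odd u)
    (h : NumL (2 ^ f) 20 [20, 38] (nE6 u) 3 u [7, 9, 12, 14, 18]) : False := by
  by_cases h0 : 3 ≤ f
  · exact anaL (e := 38) (P := 19) (Q := 2 ^ 3) xE7 h hu ho (by decide) (by norm_num) (by norm_num) (by norm_num)
      (hmax_of (by norm_num) (by decide +kernel)) (by norm_num) (Nat.pow_le_pow_right (by norm_num) h0)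
      (by decide +kernel) (by decide +kernel)
  · have h1 : f < 3 := not_le.1 h0
    interval_cases f
    · exact finL xE7 h hu ho [(20, 41), (38, 174763)] 3 (by decide +kernel) (by decide +kernel) (by decide +kernel)
    · exact finL xE7 h hu ho [(20, 61681), (38, 54975581389)] 14 (by decide +kernel) (by decide +kernel) (by decide +kernel)

end Cfsg.Agent.R2.Spec.X6
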